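import Cfsg.Agent.Lib.SLTwoPres.Core

/-!
# Two copies of `SL₂` glued along the relations of `Sp₄`

Finitely many relations between two copies of `SL₂(q)` imply the full torus actions and commutator
formulas of the positive root subgroups of `Sp₄(q)`.
-/

set_option autoImplicit false

namespace Cfsg.Agent.Lib.SpFourPres

open Cfsg.Agent.Lib.SLTwoPres.Core

universe u v

variable {F : Type u} [Field F]

/-- An additive subgroup containing all squares is everything. -/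
theorem squares_span [Finite F] (M : AddSubgroup F) (h : ∀ s : F, s ^ 2 ∈ M) : M = ⊤ := by
  refine eq_top_iff.2 fun x _ => ?_
  rcases eq_or_ne (2 : F) 0 with h2 | h2
  · haveI : Fintype F := Fintype.ofFinite F
    haveI : CharP F 2 := CharTwo.of_one_ne_zero_of_two_eq_zero one_ne_zero h2
    obtain ⟨y, hy⟩ := (FiniteField.isSquare_of_char_two (CharP.eq F (ringChar.charP F) (inferInstance : CharP F 2)) x :
      IsSquare x)
    rw [hy, ← pow_two]
    exact h y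
  · have e : x = ((x + 1) / 2) ^ 2 - ((x - 1) / 2) ^ 2 := by field_simp; ring
    rw [e]
    exact sub_mem (h _) (h _)

variable {G : Type v} [Group G]

/-- Additive maps agreeing on squares are equal. -/
theorem eq_of_squares [Finite F] (f g : F → G) (hf : ∀ a b, f (a + b) = f a * f b)
    (hg : ∀ a b, g (a + b) = g a * g b) (h : ∀ s, f (s ^ 2) = g (s ^ 2)) (x : F) : f x = g x := by
  have zero : ∀ k : F → G, (∀ a b, k (a + b) = k a * k b) → k 0 = 1 := fun k hk => by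
    have := hk 0 0
    rw [add_zero] at this
    exact left_eq_mul.1 this
  have neg : ∀ k : F → G, (∀ a b, k (a + b) = k a * k b) → ∀ a, k (-a) = (k a)⁻¹ := fun k hk a =>
    eq_inv_of_mul_eq_one_left (by rw [← hk, neg_add_cancel, zero k hk])
  let M : AddSubgroup F :=
    { carrier := {a | f a = g a}
      add_mem' := fun {a b} ha hb => by
        show f (a + b) = g (a + b)
        rw [hf, hg, show f a = g a from ha, show f b = g b from hb]
      zero_mem' := by show f 0 = g 0; rw [zero f hf, zero g hg]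
      neg_mem' := fun {a} ha => by
        show f (-a) = g (-a)
        rw [neg f hf, neg g hg, show f a = g a from ha] }
  have : x ∈ M := (squares_span M h) ▸ AddSubgroup.mem_top x
  exact this

theorem conj_mul' (g a b : G) : g * (a * b) * g⁻¹ = (g * a * g⁻¹) * (g * b * g⁻¹) := by group

theorem conj_conj (k a b : G) :
    k * a * k⁻¹ * (k * b * k⁻¹) * (k * a * k⁻¹)⁻¹ = k * (a * b * a⁻¹) * k⁻¹ := by group

theorem commute_conj (g : G) {a b : G} (h : Commute a b) : Commute (g * a * g⁻¹) (g * b * g⁻¹) := by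
  have := h.map (MulAut.conj g).toMonoidHom
  simp only [MulEquiv.coe_toMonoidHom, MulAut.conj_apply] at this
  exact this

/-- Two copies of `SL₂` and the finitely many relations. -/
structure Data (F : Type u) [Field F] (G : Type v) [Group G] where
  A : Matrix.SpecialLinearGroup (Fin 2) F →* G
  B : Matrix.SpecialLinearGroup (Fin 2) F →* G
  ω : Fˣ
  hω : ∀ s : Fˣ, ∃ n : ℕ, ω ^ n = s
  tor : Commute (A (H' ω)) (B (H' ω))
  act_ab : A (H' ω) * B (X' 1) * (A (H' ω))⁻¹ = B (X' (((ω⁻¹ : Fˣ) : F) ^ 2))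
  act_ba : B (H' ω) * A (X' 1) * (B (H' ω))⁻¹ = A (X' ((ω⁻¹ : Fˣ) : F))
  weyl_a : A T' * B (H' ω) * (A T')⁻¹ = A (H' ω) * B (H' ω)
  weyl_b : B T' * A (H' ω) * (B T')⁻¹ = A (H' ω) * B (H' ω) * B (H' ω)
  braid : A T' * B T' * A T' * B T' = B T' * A T' * B T' * A T'
  fix_a : A T' * (B T' * A (X' 1) * (B T')⁻¹) * (A T')⁻¹ = B T' * A (X' (-1)) * (B T')⁻¹
  fix_b : B T' * (A T' * B (X' 1) * (A T')⁻¹) * (B T')⁻¹ = A T' * B (X' 1) * (A T')⁻¹
  comm_lb : Commute (A T' * B (X' 1) * (A T')⁻¹) (B (X' 1))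
  comm_ab : A (X' 1) * B (X' 1) * (A (X' 1))⁻¹ =
    B (X' 1) * (B T' * A (X' (-1)) * (B T')⁻¹) * (A T' * B (X' 1) * (A T')⁻¹)
  comm_as : A (X' 1) * (B T' * A (X' 1) * (B T')⁻¹) * (A (X' 1))⁻¹ =
    B T' * A (X' 1) * (B T')⁻¹ * (A T' * B (X' (-(1 + 1))) * (A T')⁻¹)
  comm_al : Commute (A (X' 1)) (A T' * B (X' 1) * (A T')⁻¹)

namespace Data

variable (D : Data F G)

/-- The short simple root subgroup. -/
def xa (c : F) : G := D.A (X' c)

/-- The long simple root subgroup. -/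
def xb (c : F) : G := D.B (X' c)

/-- The short coroot. -/
def ha (s : Fˣ) : G := D.A (H' s)

/-- The long coroot. -/
def hb (s : Fˣ) : G := D.B (H' s)

/-- The short simple reflection. -/
def na : G := D.A T'

/-- The long simple reflection. -/
def nb : G := D.B T'

/-- The long root subgroup that is not simple. -/
def x1 (c : F) : G := D.na * D.xb c * D.na⁻¹

/-- The short root subgroup that is not simple. -/
def x2 (c : F) : G := D.nb * D.xa c * D.nb⁻¹

/-- `g` multiplies the family `y` by `ν`. -/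
def Scales (g : G) (y : F → G) (ν : Fˣ) : Prop := ∀ a, g * y a * g⁻¹ = y ((ν : F) * a)

theorem Scales.mul {g g' : G} {y : F → G} {ν ν' : Fˣ} (hg : Scales g y ν) (hg' : Scales g' y ν') :
    Scales (g * g') y (ν * ν') := fun a => by
  rw [show g * g' * y a * (g * g')⁻¹ = g * (g' * y a * g'⁻¹) * g⁻¹ by group, hg', hg, Units.val_mul, mul_assoc]

theorem Scales.inv {g : G} {y : F → G} {ν : Fˣ} (hg : Scales g y ν) : Scales g⁻¹ y ν⁻¹ := fun a => by
  have := hg (((ν⁻¹ : Fˣ) : F) * a)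
  rw [← mul_assoc, ← Units.val_mul, mul_inv_cancel, Units.val_one, one_mul] at this
  conv_lhs => rw [← this]
  group

theorem Scales.pow {g : G} {y : F → G} {ν : Fˣ} (hg : Scales g y ν) (n : ℕ) : Scales (g ^ n) y (ν ^ n) := by
  induction n with
  | zero => intro a; simp
  | succ n ih => rw [pow_succ, pow_succ]; exact ih.mul hg

theorem xa_add (a b : F) : D.xa (a + b) = D.xa a * D.xa b := by rw [xa, X'_add, map_mul]; rfl

theorem xb_add (a b : F) : D.xb (a + b) = D.xb a * D.xb b := by rw [xb, X'_add, map_mul]; rfl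

theorem x1_add (a b : F) : D.x1 (a + b) = D.x1 a * D.x1 b := by simp only [x1]; rw [D.xb_add]; group

theorem x2_add (a b : F) : D.x2 (a + b) = D.x2 a * D.x2 b := by simp only [x2]; rw [D.xa_add]; group

theorem xa_zero : D.xa 0 = 1 := by rw [xa, X'_zero, map_one]

theorem xb_zero : D.xb 0 = 1 := by rw [xb, X'_zero, map_one]

theorem x1_zero : D.x1 0 = 1 := by simp [x1, D.xb_zero]

theorem x2_zero : D.x2 0 = 1 := by simp [x2, D.xa_zero]

theorem ha_mul (s t : Fˣ) : D.ha (s * t) = D.ha s * D.ha t := by rw [ha, H'_mul, map_mul]; rfl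

theorem hb_mul (s t : Fˣ) : D.hb (s * t) = D.hb s * D.hb t := by rw [hb, H'_mul, map_mul]; rfl

theorem ha_pow (s : Fˣ) (n : ℕ) : D.ha (s ^ n) = D.ha s ^ n := by rw [ha, ← H'_pow, map_pow]; rfl

theorem hb_pow (s : Fˣ) (n : ℕ) : D.hb (s ^ n) = D.hb s ^ n := by rw [hb, ← H'_pow, map_pow]; rfl

theorem s_ha (s : Fˣ) : Scales (D.ha s) D.xa (s ^ 2) := fun c => by
  show D.A (H' s) * D.A (X' c) * (D.A (H' s))⁻¹ = D.A (X' _)
  rw [← map_inv, ← map_mul, ← map_mul, H'_conj, Units.val_pow_eq_pow_val]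

theorem s_hb (s : Fˣ) : Scales (D.hb s) D.xb (s ^ 2) := fun c => by
  show D.B (H' s) * D.B (X' c) * (D.B (H' s))⁻¹ = D.B (X' _)
  rw [← map_inv, ← map_mul, ← map_mul, H'_conj, Units.val_pow_eq_pow_val]

theorem comm_h (s t : Fˣ) : Commute (D.ha s) (D.hb t) := by
  obtain ⟨m, rfl⟩ := D.hω s
  obtain ⟨n, rfl⟩ := D.hω t
  rw [D.ha_pow, D.hb_pow]
  exact Commute.pow_pow (show Commute (D.ha D.ω) (D.hb D.ω) from D.tor) m n

variable [Finite F]

/-- A conjugation agreeing with a scaling at one point agrees everywhere, along the orbit of squares. -/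
theorem scales_of_one (g : G) (y : F → G) (ν : Fˣ) (hy : ∀ a b, y (a + b) = y a * y b)
    (hsq : ∀ s : Fˣ, ∃ k : G, Commute g k ∧ Scales k y (s ^ 2)) (h1 : g * y 1 * g⁻¹ = y (ν : F)) :
    Scales g y ν := by
  refine eq_of_squares (fun a => g * y a * g⁻¹) (fun a => y ((ν : F) * a)) (fun a b => ?_) (fun a b => ?_) fun s => ?_
  · rw [hy, conj_mul']
  · rw [mul_add, hy]
  · rcases eq_or_ne s 0 with rfl | hs
    · have h0 : y 0 = 1 := by
        have := hy 0 0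
        rw [add_zero] at this
        exact left_eq_mul.1 this
      simp [h0]
    · obtain ⟨k, hgk, hk⟩ := hsq (Units.mk0 s hs)
      have e1 := hk 1
      have e2 := hk (ν : F)
      rw [Units.val_pow_eq_pow_val, Units.val_mk0, mul_one] at e1
      rw [Units.val_pow_eq_pow_val, Units.val_mk0] at e2
      show g * y (s ^ 2) * g⁻¹ = y ((ν : F) * s ^ 2)
      rw [mul_comm, ← e1, ← e2, ← h1,
        show g * (k * y 1 * k⁻¹) * g⁻¹ = (g * k) * y 1 * (g * k)⁻¹ by group, hgk.eq]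
      group

theorem s_hb_xa (t : Fˣ) : Scales (D.hb t) D.xa t⁻¹ := by
  obtain ⟨n, rfl⟩ := D.hω t
  rw [D.hb_pow, ← inv_pow]
  exact (scales_of_one _ _ _ D.xa_add (fun s => ⟨D.ha s, (D.comm_h s D.ω).symm, D.s_ha s⟩) D.act_ba).pow n

theorem s_ha_xb (s : Fˣ) : Scales (D.ha s) D.xb (s⁻¹ ^ 2) := by
  obtain ⟨n, rfl⟩ := D.hω s
  rw [D.ha_pow, show ((D.ω ^ n)⁻¹) ^ 2 = (D.ω⁻¹ ^ 2) ^ n by rw [inv_pow, inv_pow, inv_pow, ← pow_mul, ← pow_mul, mul_comm]]
  exact (scales_of_one _ _ _ D.xb_add (fun t => ⟨D.hb t, D.comm_h D.ω t, D.s_hb t⟩)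
    (by rw [Units.val_pow_eq_pow_val]; exact D.act_ab)).pow n

theorem na_ha (s : Fˣ) : D.na * D.ha s * D.na⁻¹ = D.ha s⁻¹ := by
  have h := congrArg D.A (T'_H' s)
  rw [map_mul, map_mul, map_mul, map_inv, map_one] at h
  rw [show D.ha s⁻¹ = (D.ha s)⁻¹ from eq_inv_of_mul_eq_one_left (by rw [← D.ha_mul, inv_mul_cancel, ha, H'_one, map_one])]
  exact eq_inv_of_mul_eq_one_left h

theorem nb_hb (s : Fˣ) : D.nb * D.hb s * D.nb⁻¹ = D.hb s⁻¹ := by
  have h := congrArg D.B (T'_H' s)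
  rw [map_mul, map_mul, map_mul, map_inv, map_one] at h
  rw [show D.hb s⁻¹ = (D.hb s)⁻¹ from eq_inv_of_mul_eq_one_left (by rw [← D.hb_mul, inv_mul_cancel, hb, H'_one, map_one])]
  exact eq_inv_of_mul_eq_one_left h

theorem na_hb (t : Fˣ) : D.na * D.hb t * D.na⁻¹ = D.ha t * D.hb t := by
  obtain ⟨n, rfl⟩ := D.hω t
  rw [D.hb_pow, ← conj_pow, show D.na * D.hb D.ω * D.na⁻¹ = D.ha D.ω * D.hb D.ω from D.weyl_a,
    (D.comm_h D.ω D.ω).mul_pow, D.ha_pow]

theorem nb_ha (s : Fˣ) : D.nb * D.ha s * D.nb⁻¹ = D.ha s * D.hb (s ^ 2) := by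
  obtain ⟨n, rfl⟩ := D.hω s
  rw [D.ha_pow, ← conj_pow, show D.nb * D.ha D.ω * D.nb⁻¹ = D.ha D.ω * D.hb D.ω * D.hb D.ω from D.weyl_b,
    mul_assoc, ← pow_two, ← D.hb_pow, (D.comm_h D.ω (D.ω ^ 2)).mul_pow, ← D.hb_pow, ← pow_mul, ← pow_mul, mul_comm 2 n]

theorem na_sq : D.na * D.na = D.ha (-1) := by
  rw [na, ← map_mul, ← pow_two, T'_sq]; rfl

theorem nb_sq : D.nb * D.nb = D.hb (-1) := by
  rw [nb, ← map_mul, ← pow_two, T'_sq]; rfl

theorem na_inv_hb (t : Fˣ) : D.na⁻¹ * D.hb t * D.na = D.ha t * D.hb t := by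
  have hc : Commute (D.ha (-1)) (D.ha t * D.hb t) :=
    ((show Commute (D.ha (-1)) (D.ha t) by rw [commute_iff_eq, ← D.ha_mul, ← D.ha_mul, mul_comm]).mul_right (D.comm_h _ _))
  rw [← D.na_hb, show D.na⁻¹ * D.hb t * D.na = (D.na * D.na)⁻¹ * (D.na * D.hb t * D.na⁻¹) * (D.na * D.na) by group,
    D.na_sq, D.na_hb, mul_assoc, ← hc.eq, inv_mul_cancel_left]

theorem nb_inv_ha (s : Fˣ) : D.nb⁻¹ * D.ha s * D.nb = D.ha s * D.hb (s ^ 2) := by
  have hc : Commute (D.hb (-1)) (D.ha s * D.hb (s ^ 2)) :=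
    ((D.comm_h _ _).symm.mul_right (show Commute (D.hb (-1)) (D.hb (s ^ 2)) by
      rw [commute_iff_eq, ← D.hb_mul, ← D.hb_mul, mul_comm]))
  rw [← D.nb_ha, show D.nb⁻¹ * D.ha s * D.nb = (D.nb * D.nb)⁻¹ * (D.nb * D.ha s * D.nb⁻¹) * (D.nb * D.nb) by group,
    D.nb_sq, D.nb_ha, mul_assoc, ← hc.eq, inv_mul_cancel_left]

theorem na_inv_ha (s : Fˣ) : D.na⁻¹ * D.ha s * D.na = D.ha s⁻¹ := by
  have := D.na_ha s⁻¹
  rw [inv_inv] at this
  rw [← this]; group

theorem nb_inv_hb (s : Fˣ) : D.nb⁻¹ * D.hb s * D.nb = D.hb s⁻¹ := by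
  have := D.nb_hb s⁻¹
  rw [inv_inv] at this
  rw [← this]; group

omit [Finite F] in
theorem scales_shift {g g' n : G} {y : F → G} {ν : Fˣ} (hg : n⁻¹ * g * n = g') (hs : Scales g' y ν) :
    Scales g (fun a => n * y a * n⁻¹) ν := fun a => by
  show g * (n * y a * n⁻¹) * g⁻¹ = n * y ((ν : F) * a) * n⁻¹
  rw [← hs a, ← hg]; group

theorem s_ha_x1 (s : Fˣ) : Scales (D.ha s) D.x1 (s ^ 2) := by
  have := scales_shift (D.na_inv_ha s) (D.s_ha_xb s⁻¹)
  rwa [inv_inv] at this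

theorem s_hb_x1 (t : Fˣ) : Scales (D.hb t) D.x1 1 := by
  have := scales_shift (D.na_inv_hb t) ((D.s_ha_xb t).mul (D.s_hb t))
  rwa [← mul_pow, inv_mul_cancel, one_pow] at this

theorem s_ha_x2 (s : Fˣ) : Scales (D.ha s) D.x2 1 := by
  have := scales_shift (D.nb_inv_ha s) ((D.s_ha s).mul (D.s_hb_xa (s ^ 2)))
  rwa [mul_inv_cancel] at this

theorem s_hb_x2 (t : Fˣ) : Scales (D.hb t) D.x2 t := by
  have := scales_shift (D.nb_inv_hb t) (D.s_hb_xa t⁻¹)
  rwa [inv_inv] at this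

theorem na_x2 (f : F) : D.na * D.x2 f * D.na⁻¹ = D.x2 (-f) := by
  rcases eq_or_ne f 0 with rfl | hf
  · rw [neg_zero, D.x2_zero]; group
  set t := Units.mk0 f hf
  have e1 := D.s_hb_x2 t 1
  have e2 := ((D.s_ha_x2 t).mul (D.s_hb_x2 t)) (-1)
  rw [mul_one, Units.val_mk0] at e1
  rw [one_mul, Units.val_mk0, mul_neg_one] at e2
  rw [← e1, ← e2, ← D.na_hb, show D.x2 (-1) = D.na * D.x2 1 * D.na⁻¹ from D.fix_a.symm]
  group

theorem nb_x1 (e : F) : D.nb * D.x1 e * D.nb⁻¹ = D.x1 e := by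
  refine eq_of_squares (fun a => D.nb * D.x1 a * D.nb⁻¹) D.x1 (fun a b => by rw [D.x1_add, conj_mul']) D.x1_add
    (fun s => ?_) e
  rcases eq_or_ne s 0 with rfl | hs
  · simp [D.x1_zero]
  have e1 := D.s_ha_x1 (Units.mk0 s hs) 1
  rw [Units.val_pow_eq_pow_val, Units.val_mk0, mul_one] at e1
  have e2 := ((D.s_ha_x1 (Units.mk0 s hs)).mul (D.s_hb_x1 (Units.mk0 s hs ^ 2))) 1
  rw [mul_one, mul_one, Units.val_pow_eq_pow_val, Units.val_mk0] at e2
  show D.nb * D.x1 (s ^ 2) * D.nb⁻¹ = D.x1 (s ^ 2)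
  conv_rhs => rw [← e2, show D.x1 1 = D.nb * D.x1 1 * D.nb⁻¹ from D.fix_b.symm, ← D.nb_ha]
  conv_lhs => rw [← e1]
  group

theorem na_sq_scales {y : F → G} {ν : Fˣ} (h : ∀ s, Scales (D.ha s) y (ν * (s ^ 2))) :
    Scales (D.na * D.na) y ν := by
  have := h (-1)
  rw [D.na_sq]
  rwa [neg_one_sq, mul_one] at this

theorem na_x1 (e : F) : D.na * D.x1 e * D.na⁻¹ = D.xb e := by
  have h := (D.s_ha_xb (-1)) e
  rw [inv_neg, inv_one, neg_one_sq, Units.val_one, one_mul, ← D.na_sq] at h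
  conv_rhs => rw [← h]
  simp only [x1]
  group

theorem nb_x2 (f : F) : D.nb * D.x2 f * D.nb⁻¹ = D.xa (-f) := by
  have h := (D.s_hb_xa (-1)) f
  rw [inv_neg, inv_one, Units.val_neg, Units.val_one, neg_one_mul, ← D.nb_sq] at h
  rw [← h]
  simp only [x2]
  group

theorem comm_x1_xb (e c : F) : Commute (D.x1 e) (D.xb c) := by
  have base : ∀ s : F, Commute (D.x1 (s ^ 2)) (D.xb 1) := fun s => by
    rcases eq_or_ne s 0 with rfl | hs
    · rw [zero_pow two_ne_zero, D.x1_zero]; exact Commute.one_left _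
    set u := Units.mk0 s hs
    have e1 := ((D.s_ha_x1 u).mul (D.s_hb_x1 u)) 1
    have e2 := ((D.s_ha_xb u).mul (D.s_hb u)) 1
    rw [mul_one, mul_one, Units.val_pow_eq_pow_val, Units.val_mk0] at e1
    rw [← mul_pow, inv_mul_cancel, one_pow, Units.val_one, one_mul] at e2
    rw [← e1, ← e2]
    exact commute_conj _ D.comm_lb
  have key : ∀ e, Commute (D.x1 e) (D.xb 1) := fun e => by
    have := eq_of_squares (fun a => D.xb 1 * D.x1 a * (D.xb 1)⁻¹) D.x1 (fun a b => by rw [D.x1_add, conj_mul'])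
      D.x1_add (fun s => by rw [(base s).symm.eq, mul_inv_cancel_right]) e
    exact (mul_inv_eq_iff_eq_mul.1 this).symm
  have key2 : ∀ s : F, Commute (D.x1 e) (D.xb (s ^ 2)) := fun s => by
    rcases eq_or_ne s 0 with rfl | hs
    · rw [zero_pow two_ne_zero, D.xb_zero]; exact Commute.one_right _
    set u := Units.mk0 s hs
    have e1 := (D.s_hb_x1 u) e
    have e2 := (D.s_hb u) 1
    rw [Units.val_one, one_mul] at e1
    rw [Units.val_pow_eq_pow_val, Units.val_mk0, mul_one] at e2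
    rw [← e1, ← e2]
    exact commute_conj _ (key e)
  have := eq_of_squares (fun a => D.x1 e * D.xb a * (D.x1 e)⁻¹) D.xb (fun a b => by rw [D.xb_add, conj_mul'])
    D.xb_add (fun s => by rw [(key2 s).eq, mul_inv_cancel_right]) c
  exact mul_inv_eq_iff_eq_mul.1 this

theorem comm_xa_x1 (d e : F) : Commute (D.xa d) (D.x1 e) := by
  have base : ∀ s : F, Commute (D.xa 1) (D.x1 (s ^ 2)) := fun s => by
    rcases eq_or_ne s 0 with rfl | hs
    · rw [zero_pow two_ne_zero, D.x1_zero]; exact Commute.one_right _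
    set u := Units.mk0 s hs
    have e1 := ((D.s_ha u).mul (D.s_hb_xa (u ^ 2))) 1
    have e2 := ((D.s_ha_x1 u).mul (D.s_hb_x1 (u ^ 2))) 1
    rw [mul_inv_cancel, Units.val_one, one_mul] at e1
    rw [mul_one, mul_one, Units.val_pow_eq_pow_val, Units.val_mk0] at e2
    rw [← e1, ← e2]
    exact commute_conj _ D.comm_al
  have key : ∀ e, Commute (D.xa 1) (D.x1 e) := fun e => by
    have := eq_of_squares (fun a => D.xa 1 * D.x1 a * (D.xa 1)⁻¹) D.x1 (fun a b => by rw [D.x1_add, conj_mul'])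
      D.x1_add (fun s => by rw [(base s).eq, mul_inv_cancel_right]) e
    exact mul_inv_eq_iff_eq_mul.1 this
  rcases eq_or_ne d 0 with rfl | hd
  · rw [D.xa_zero]; exact Commute.one_left _
  set t := (Units.mk0 d hd)⁻¹
  have e1 := (D.s_hb_xa t) 1
  have e2 := (D.s_hb_x1 t) e
  rw [inv_inv, Units.val_mk0, mul_one] at e1
  rw [Units.val_one, one_mul] at e2
  rw [← e1, ← e2]
  exact commute_conj _ (key e)

theorem comm_x1_x2 (e f : F) : Commute (D.x1 e) (D.x2 f) := by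
  have := commute_conj D.nb (D.comm_xa_x1 f e)
  rw [D.nb_x1] at this
  exact this.symm

theorem comm_x2_xb (f c : F) : Commute (D.x2 f) (D.xb c) := by
  have := commute_conj D.na (D.comm_x1_x2 c (-f))
  rw [D.na_x1, D.na_x2, neg_neg] at this
  exact this.symm

theorem xa_x2 (d f : F) :
    D.xa d * D.x2 f * (D.xa d)⁻¹ = D.x2 f * D.x1 (-(d * f + d * f)) := by
  have base : ∀ f, D.xa 1 * D.x2 f * (D.xa 1)⁻¹ = D.x2 f * D.x1 (-(f + f)) := by
    refine eq_of_squares (fun f => D.xa 1 * D.x2 f * (D.xa 1)⁻¹) (fun f => D.x2 f * D.x1 (-(f + f)))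
      (fun a b => by rw [D.x2_add, conj_mul']) (fun a b => ?_) fun s => ?_
    · rw [D.x2_add, show -(a + b + (a + b)) = -(a + a) + -(b + b) by ring, D.x1_add]
      simp only [mul_assoc]
      rw [← mul_assoc (D.x1 (-(a + a))) (D.x2 b), (D.comm_x1_x2 _ _).eq, mul_assoc]
    · rcases eq_or_ne s 0 with rfl | hs
      · simp [D.x2_zero, D.x1_zero]
      set u := Units.mk0 s hs
      have e1 := ((D.s_ha u).mul (D.s_hb_xa (u ^ 2))) 1
      have e2 := ((D.s_ha_x2 u).mul (D.s_hb_x2 (u ^ 2))) 1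
      have e3 := ((D.s_ha_x1 u).mul (D.s_hb_x1 (u ^ 2))) (-(1 + 1))
      rw [mul_inv_cancel, Units.val_one, one_mul] at e1
      rw [one_mul, Units.val_pow_eq_pow_val, Units.val_mk0, mul_one] at e2
      rw [mul_one, Units.val_pow_eq_pow_val, Units.val_mk0, show s ^ 2 * -(1 + 1 : F) = -(s ^ 2 + s ^ 2) by ring] at e3
      show D.xa 1 * D.x2 (s ^ 2) * (D.xa 1)⁻¹ = D.x2 (s ^ 2) * D.x1 (-(s ^ 2 + s ^ 2))
      rw [← e1, ← e2, ← e3, conj_conj, show D.xa 1 * D.x2 1 * (D.xa 1)⁻¹ = D.x2 1 * D.x1 (-(1 + 1)) from D.comm_as]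
      group
  rcases eq_or_ne d 0 with rfl | hd
  · simp [D.xa_zero, D.x1_zero]
  set t := (Units.mk0 d hd)⁻¹
  have e1 := (D.s_hb_xa t) 1
  have e2 := (D.s_hb_x2 t) (d * f)
  have e3 := (D.s_hb_x1 t) (-(d * f + d * f))
  rw [inv_inv, Units.val_mk0, mul_one] at e1
  rw [Units.val_inv_eq_inv_val, Units.val_mk0, inv_mul_cancel_left₀ hd] at e2
  rw [Units.val_one, one_mul] at e3
  rw [← e1, ← e2, ← e3, conj_conj, base (d * f)]
  group

theorem xa_xb (d c : F) :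
    D.xa d * D.xb c * (D.xa d)⁻¹ = D.xb c * D.x2 (-(c * d)) * D.x1 (c * (d * d)) := by
  have base : ∀ c, D.xa 1 * D.xb c * (D.xa 1)⁻¹ = D.xb c * D.x2 (-c) * D.x1 c := by
    refine eq_of_squares (fun c => D.xa 1 * D.xb c * (D.xa 1)⁻¹) (fun c => D.xb c * D.x2 (-c) * D.x1 c)
      (fun a b => by rw [D.xb_add, conj_mul']) (fun a b => ?_) fun s => ?_
    · rw [D.xb_add, neg_add, D.x2_add, D.x1_add]
      calc D.xb a * D.xb b * (D.x2 (-a) * D.x2 (-b)) * (D.x1 a * D.x1 b)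
          = D.xb a * (D.xb b * D.x2 (-a)) * (D.x2 (-b) * D.x1 a) * D.x1 b := by group
        _ = D.xb a * D.x2 (-a) * (D.xb b * (D.x1 a * D.x2 (-b))) * D.x1 b := by
          rw [(D.comm_x2_xb (-a) b).symm.eq, (D.comm_x1_x2 a (-b)).symm.eq]; group
        _ = D.xb a * D.x2 (-a) * (D.x1 a * D.xb b) * D.x2 (-b) * D.x1 b := by
          rw [← mul_assoc (D.xb b), (D.comm_x1_xb a b).symm.eq]; group
        _ = _ := by group
    · rcases eq_or_ne s 0 with rfl | hs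
      · simp [D.xb_zero, D.x2_zero, D.x1_zero]
      set u := Units.mk0 s hs
      have e1 := ((D.s_ha u).mul (D.s_hb_xa (u ^ 2))) 1
      have e2 := ((D.s_ha_xb u).mul (D.s_hb (u ^ 2))) 1
      have e3 := ((D.s_ha_x2 u).mul (D.s_hb_x2 (u ^ 2))) (-1)
      have e4 := ((D.s_ha_x1 u).mul (D.s_hb_x1 (u ^ 2))) 1
      rw [mul_inv_cancel, Units.val_one, one_mul] at e1
      rw [show u⁻¹ ^ 2 * (u ^ 2) ^ 2 = u ^ 2 by group, Units.val_pow_eq_pow_val, Units.val_mk0, mul_one] at e2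
      rw [one_mul, Units.val_pow_eq_pow_val, Units.val_mk0, mul_neg_one] at e3
      rw [mul_one, mul_one, Units.val_pow_eq_pow_val, Units.val_mk0] at e4
      show D.xa 1 * D.xb (s ^ 2) * (D.xa 1)⁻¹ = D.xb (s ^ 2) * D.x2 (-(s ^ 2)) * D.x1 (s ^ 2)
      rw [← e1, ← e2, ← e3, ← e4, conj_conj,
        show D.xa 1 * D.xb 1 * (D.xa 1)⁻¹ = D.xb 1 * D.x2 (-1) * D.x1 1 from D.comm_ab]
      group
  rcases eq_or_ne d 0 with rfl | hd
  · simp [D.xa_zero, D.x2_zero, D.x1_zero]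
  set t := (Units.mk0 d hd)⁻¹
  have e1 := (D.s_hb_xa t) 1
  have e2 := (D.s_hb t) (c * (d * d))
  have e3 := (D.s_hb_x2 t) (-(c * (d * d)))
  have e4 := (D.s_hb_x1 t) (c * (d * d))
  rw [inv_inv, Units.val_mk0, mul_one] at e1
  rw [Units.val_pow_eq_pow_val, Units.val_inv_eq_inv_val, Units.val_mk0,
    show d⁻¹ ^ 2 * (c * (d * d)) = c by field_simp] at e2
  rw [Units.val_inv_eq_inv_val, Units.val_mk0, show d⁻¹ * -(c * (d * d)) = -(c * d) by field_simp] at e3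
  rw [Units.val_one, one_mul] at e4
  rw [← e1, ← e2, ← e3, ← e4, conj_conj, base (c * (d * d))]
  group

end Data

end Cfsg.Agent.Lib.SpFourPres
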