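import Cfsg.Agent.Lib.SpFourPres.Torus
import Cfsg.Agent.S2426

/-!
# A group glued from two copies of `SL₂` along the relations of `Sp₄` is no larger than `Sp₄`

Eight Bruhat cells are stable under right multiplication by the generators.
-/

set_option autoImplicit false

namespace Cfsg.Agent.Lib.SpFourPres

open Cfsg.Agent.Lib.SLTwoPres.Core

universe u v

variable {F : Type u} [Field F]

/-- `SL₂` is generated by its unitriangular elements. -/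
theorem sl_two_closure [Finite F] (H : Subgroup (Matrix.SpecialLinearGroup (Fin 2) F)) (hX : ∀ c, X' c ∈ H)
    (hY : ∀ c, Y' c ∈ H) : H = ⊤ := by
  obtain ⟨e, he1, he2⟩ := Cfsg.Agent.S2426.result (K := F)
  rw [eq_top_iff]
  intro g _
  have hle : ∀ z, z ∈ H.comap e.toMonoidHom := by
    intro z
    refine (show (⊤ : Subgroup _) ≤ H.comap e.toMonoidHom from ?_) (Subgroup.mem_top z)
    rw [← PresentedGroup.closure_range_of, Subgroup.closure_le]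
    rintro _ ⟨⟨b, c⟩, rfl⟩
    show e (PresentedGroup.of (b, c)) ∈ H
    cases b
    · convert hY c using 1
      exact Subtype.ext (he2 c)
    · convert hX c using 1
      exact Subtype.ext (he1 c)
  have := hle (e.symm g)
  rwa [Subgroup.mem_comap, MulEquiv.coe_toMonoidHom, MulEquiv.apply_symm_apply] at this

variable {G : Type v} [Group G]

/-- The rank one Bruhat identity. -/
theorem TXT (d : Fˣ) : (T' : Matrix.SpecialLinearGroup (Fin 2) F) * X' (d : F) * T' =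
    X' (((-d⁻¹ : Fˣ)) : F) * H' (-d⁻¹) * T' * X' (((-d⁻¹ : Fˣ)) : F) := by
  refine Matrix.SpecialLinearGroup.ext _ _ fun i j => ?_
  simp only [Matrix.SpecialLinearGroup.coe_mul]
  fin_cases i <;> fin_cases j <;>
    simp [T', X', H', Matrix.mul_apply, Fin.sum_univ_two] <;> field_simp <;> ring

namespace Data

variable (D : Data F G) [Finite F]

/-- An element of the torus. -/
def tau (p : Fˣ × Fˣ) : G := D.ha p.1 * D.hb p.2

/-- The torus. -/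
def T : Subgroup G where
  carrier := Set.range D.tau
  one_mem' := ⟨(1, 1), by simp [tau, ha, hb, H'_one]⟩
  mul_mem' := by
    rintro _ _ ⟨⟨s, t⟩, rfl⟩ ⟨⟨s', t'⟩, rfl⟩
    refine ⟨(s * s', t * t'), ?_⟩
    show D.ha (s * s') * D.hb (t * t') = D.ha s * D.hb t * (D.ha s' * D.hb t')
    rw [D.ha_mul, D.hb_mul, (D.comm_h s' t).symm.mul_mul_mul_comm]
  inv_mem' := by
    rintro _ ⟨⟨s, t⟩, rfl⟩
    refine ⟨(s⁻¹, t⁻¹), eq_inv_of_mul_eq_one_left ?_⟩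
    show D.ha s⁻¹ * D.hb t⁻¹ * (D.ha s * D.hb t) = 1
    rw [(D.comm_h s t⁻¹).symm.mul_mul_mul_comm, ← D.ha_mul, ← D.hb_mul, inv_mul_cancel, inv_mul_cancel]
    simp [ha, hb, H'_one]

/-- An element of the unipotent radical in standard form. -/
def uu (d e f c : F) : G := D.xa d * D.x1 e * D.x2 f * D.xb c

theorem uu_mul (d e f c d' e' f' c' : F) :
    D.uu d e f c * D.uu d' e' f' c' =
      D.uu (d + d') (e + (c * ((-d') * (-d'))) + -((-d') * f + (-d') * f) + e') (f + -(c * -d') + f') (c + c') := by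
  have h1 : (D.xa d')⁻¹ = D.xa (-d') := by
    rw [eq_comm, eq_inv_iff_mul_eq_one, ← D.xa_add, neg_add_cancel, D.xa_zero]
  have m1 : D.x1 e * D.xa d' = D.xa d' * D.x1 e := ((D.comm_xa_x1 d' e).eq).symm
  have m2 : D.x2 f * D.xa d' = D.xa d' * (D.x2 f * D.x1 (-((-d') * f + (-d') * f))) := by
    rw [← D.xa_x2, ← h1]; group
  have m3 : D.xb c * D.xa d' = D.xa d' * (D.xb c * D.x2 (-(c * -d')) * D.x1 (c * ((-d') * (-d')))) := by
    rw [← D.xa_xb, ← h1]; group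
  have c12 : ∀ a b, Commute (D.x1 a) (D.x2 b) := D.comm_x1_x2
  have c1b : ∀ a b, Commute (D.x1 a) (D.xb b) := D.comm_x1_xb
  have c2b : ∀ a b, Commute (D.x2 a) (D.xb b) := D.comm_x2_xb
  set g1 := c * ((-d') * (-d'))
  set g1' := -((-d') * f + (-d') * f)
  set g2 := -(c * -d')
  calc D.uu d e f c * D.uu d' e' f' c'
      = D.xa d * D.x1 e * D.x2 f * (D.xb c * D.xa d') * D.x1 e' * D.x2 f' * D.xb c' := by simp [uu, mul_assoc]
    _ = D.xa d * D.x1 e * (D.x2 f * D.xa d') * (D.xb c * D.x2 g2 * D.x1 g1) * D.x1 e' * D.x2 f' * D.xb c' := by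
        rw [m3]; group
    _ = D.xa d * (D.x1 e * D.xa d') * (D.x2 f * D.x1 g1') * (D.xb c * D.x2 g2 * D.x1 g1) * D.x1 e' * D.x2 f' * D.xb c' := by
        rw [m2]; group
    _ = D.xa d * D.xa d' * (D.x1 e * (D.x2 f * D.x1 g1') * (D.xb c * D.x2 g2 * D.x1 g1) * D.x1 e' * D.x2 f' * D.xb c') := by
        rw [m1]; group
    _ = D.xa (d + d') * (D.x1 e * (D.x1 g1' * D.x2 f) * (D.xb c * (D.x1 g1 * D.x2 g2)) * D.x1 e' * D.x2 f' * D.xb c') := by
        rw [← D.xa_add, ← (c12 g1' f).eq, show D.xb c * D.x2 g2 * D.x1 g1 = D.xb c * (D.x1 g1 * D.x2 g2) by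
          rw [(c12 g1 g2).eq]; group]
    _ = D.xa (d + d') * (D.x1 e * D.x1 g1' * D.x2 f * (D.x1 g1 * (D.x2 g2 * D.xb c)) * D.x1 e' * D.x2 f' * D.xb c') := by
        rw [show D.xb c * (D.x1 g1 * D.x2 g2) = D.x1 g1 * (D.x2 g2 * D.xb c) by
          rw [← mul_assoc, ← (c1b g1 c).eq, mul_assoc, ← (c2b g2 c).eq]]
        group
    _ = D.xa (d + d') * (D.x1 e * D.x1 g1' * (D.x1 g1 * D.x2 f) * D.x2 g2 * (D.x1 e' * D.xb c) * D.x2 f' * D.xb c') := by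
        rw [(c12 g1 f).eq, (c1b e' c).eq]; group
    _ = D.xa (d + d') * (D.x1 e * D.x1 g1' * D.x1 g1 * ((D.x2 f * D.x2 g2) * D.x1 e') * (D.xb c * D.x2 f') * D.xb c') := by
        group
    _ = D.xa (d + d') * (D.x1 e * D.x1 g1' * D.x1 g1 * (D.x1 e' * D.x2 (f + g2)) * (D.x2 f' * D.xb c) * D.xb c') := by
        rw [← D.x2_add, (c12 e' (f + g2)).eq, (c2b f' c).eq]
    _ = _ := by
        rw [show e + g1 + g1' + e' = e + g1' + g1 + e' by ring]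
        simp only [uu, D.x1_add, D.x2_add, D.xb_add]
        group

theorem uu_zero : D.uu 0 0 0 0 = 1 := by simp [uu, D.xa_zero, D.x1_zero, D.x2_zero, D.xb_zero]

/-- The unipotent radical. -/
def U : Subgroup G where
  carrier := Set.range fun p : F × F × F × F => D.uu p.1 p.2.1 p.2.2.1 p.2.2.2
  one_mem' := ⟨(0, 0, 0, 0), D.uu_zero⟩
  mul_mem' := by
    rintro _ _ ⟨p, rfl⟩ ⟨p', rfl⟩
    exact ⟨⟨_, _, _, _⟩, (D.uu_mul _ _ _ _ _ _ _ _).symm⟩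
  inv_mem' := by
    rintro _ ⟨⟨d, e, f, c⟩, rfl⟩
    refine ⟨(-d, -(e + (c * ((- -d) * (- -d))) + -((- -d) * f + (- -d) * f)), -(f + -(c * - -d)), -c),
      eq_inv_of_mul_eq_one_right ?_⟩
    show D.uu d e f c * D.uu (-d) _ _ (-c) = 1
    rw [D.uu_mul, add_neg_cancel, add_neg_cancel, add_neg_cancel, add_neg_cancel, D.uu_zero]

theorem uu_mem (d e f c : F) : D.uu d e f c ∈ D.U := ⟨(d, e, f, c), rfl⟩

theorem xa_mem (d : F) : D.xa d ∈ D.U := by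
  have := D.uu_mem d 0 0 0
  simpa [uu, D.x1_zero, D.x2_zero, D.xb_zero] using this

theorem x1_mem (e : F) : D.x1 e ∈ D.U := by
  have := D.uu_mem 0 e 0 0
  simpa [uu, D.xa_zero, D.x2_zero, D.xb_zero] using this

theorem x2_mem (f : F) : D.x2 f ∈ D.U := by
  have := D.uu_mem 0 0 f 0
  simpa [uu, D.xa_zero, D.x1_zero, D.xb_zero] using this

theorem xb_mem (c : F) : D.xb c ∈ D.U := by
  have := D.uu_mem 0 0 0 c
  simpa [uu, D.xa_zero, D.x1_zero, D.x2_zero] using this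

theorem T_normalizes {t u : G} (ht : t ∈ D.T) (hu : u ∈ D.U) : t * u * t⁻¹ ∈ D.U := by
  obtain ⟨⟨s, s'⟩, rfl⟩ := ht
  obtain ⟨⟨d, e, f, c⟩, rfl⟩ := hu
  simp only [uu, conj_mul']
  unfold tau
  rw [(D.s_ha s).mul (D.s_hb_xa s') d, (D.s_ha_x1 s).mul (D.s_hb_x1 s') e, (D.s_ha_x2 s).mul (D.s_hb_x2 s') f,
    (D.s_ha_xb s).mul (D.s_hb s') c]
  exact D.uu_mem _ _ _ _

/-- The Borel subgroup. -/
def Bor : Subgroup G where
  carrier := {g | ∃ u ∈ D.U, ∃ t ∈ D.T, g = u * t}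
  one_mem' := ⟨1, one_mem _, 1, one_mem _, (one_mul 1).symm⟩
  mul_mem' := by
    rintro _ _ ⟨u, hu, t, ht, rfl⟩ ⟨u', hu', t', ht', rfl⟩
    exact ⟨u * (t * u' * t⁻¹), mul_mem hu (D.T_normalizes ht hu'), t * t', mul_mem ht ht', by group⟩
  inv_mem' := by
    rintro _ ⟨u, hu, t, ht, rfl⟩
    exact ⟨t⁻¹ * u⁻¹ * t⁻¹⁻¹, D.T_normalizes (inv_mem ht) (inv_mem hu), t⁻¹, inv_mem ht, by group⟩

theorem U_le_Bor {u : G} (hu : u ∈ D.U) : u ∈ D.Bor := ⟨u, hu, 1, one_mem _, (mul_one u).symm⟩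

theorem T_le_Bor {t : G} (ht : t ∈ D.T) : t ∈ D.Bor := ⟨1, one_mem _, t, ht, (one_mul t).symm⟩

theorem ha_mem (s : Fˣ) : D.ha s ∈ D.T := ⟨(s, 1), by simp [tau, hb, H'_one]⟩

theorem hb_mem (s : Fˣ) : D.hb s ∈ D.T := ⟨(1, s), by simp [tau, ha, H'_one]⟩

theorem na_T {t : G} (ht : t ∈ D.T) : D.na * t * D.na⁻¹ ∈ D.T := by
  obtain ⟨⟨s, s'⟩, rfl⟩ := ht
  rw [tau, conj_mul', D.na_ha, D.na_hb]
  exact mul_mem (D.ha_mem _) (mul_mem (D.ha_mem _) (D.hb_mem _))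

theorem nb_T {t : G} (ht : t ∈ D.T) : D.nb * t * D.nb⁻¹ ∈ D.T := by
  obtain ⟨⟨s, s'⟩, rfl⟩ := ht
  rw [tau, conj_mul', D.nb_ha, D.nb_hb]
  exact mul_mem (mul_mem (D.ha_mem _) (D.hb_mem _)) (D.hb_mem _)

/-- Representatives of the Weyl group. -/
def word : Fin 8 → G :=
  ![1, D.na, D.nb, D.na * D.nb, D.nb * D.na, D.na * D.nb * D.na, D.nb * D.na * D.nb, D.na * D.nb * D.na * D.nb]

theorem word_T (w : Fin 8) {t : G} (ht : t ∈ D.T) : D.word w * t * (D.word w)⁻¹ ∈ D.T := by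
  have key : ∀ g h : G, (∀ t ∈ D.T, g * t * g⁻¹ ∈ D.T) → (∀ t ∈ D.T, h * t * h⁻¹ ∈ D.T) →
      ∀ t ∈ D.T, g * h * t * (g * h)⁻¹ ∈ D.T := fun g h hg hh t ht => by
    rw [show g * h * t * (g * h)⁻¹ = g * (h * t * h⁻¹) * g⁻¹ by group]
    exact hg _ (hh t ht)
  have a : ∀ t ∈ D.T, D.na * t * D.na⁻¹ ∈ D.T := fun t => D.na_T
  have b : ∀ t ∈ D.T, D.nb * t * D.nb⁻¹ ∈ D.T := fun t => D.nb_T
  fin_cases w
  · simpa [word] using ht
  · exact a t ht
  · exact b t ht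
  · exact key _ _ a b t ht
  · exact key _ _ b a t ht
  · exact key _ _ (key _ _ a b) a t ht
  · exact key _ _ (key _ _ b a) b t ht
  · exact key _ _ (key _ _ (key _ _ a b) a) b t ht

theorem na_sq_mem : D.na * D.na ∈ D.T := by rw [D.na_sq]; exact D.ha_mem _

theorem nb_sq_mem : D.nb * D.nb ∈ D.T := by rw [D.nb_sq]; exact D.hb_mem _

/-- The union of the Bruhat cells. -/
def cells : Set G := {g | ∃ w : Fin 8, ∃ b ∈ D.Bor, ∃ u ∈ D.U, g = b * D.word w * u}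

theorem cells_U {g u : G} (hg : g ∈ D.cells) (hu : u ∈ D.U) : g * u ∈ D.cells := by
  obtain ⟨w, b, hb, v, hv, rfl⟩ := hg
  exact ⟨w, b, hb, v * u, mul_mem hv hu, by group⟩

theorem cells_T {g t : G} (hg : g ∈ D.cells) (ht : t ∈ D.T) : g * t ∈ D.cells := by
  obtain ⟨w, b, hb, v, hv, rfl⟩ := hg
  refine ⟨w, b * (D.word w * t * (D.word w)⁻¹), mul_mem hb (D.T_le_Bor (D.word_T w ht)), t⁻¹ * v * t⁻¹⁻¹,
    D.T_normalizes (inv_mem ht) hv, ?_⟩
  group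

theorem cells_B {g b : G} (hb : b ∈ D.Bor) (hg : g ∈ D.cells) : b * g ∈ D.cells := by
  obtain ⟨w, b', hb', v, hv, rfl⟩ := hg
  exact ⟨w, b * b', mul_mem hb hb', v, hv, by group⟩

theorem word_mem (w : Fin 8) : D.word w ∈ D.cells := ⟨w, 1, one_mem _, 1, one_mem _, by group⟩

theorem word_seven : D.word 7 = D.nb * D.na * D.nb * D.na := by
  show D.na * D.nb * D.na * D.nb = _
  exact D.braid

theorem conj_x2_na (f : F) : D.na * D.x2 f * D.na⁻¹ ∈ D.U := by rw [D.na_x2]; exact D.x2_mem _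

theorem conj_x1_nb (e : F) : D.nb * D.x1 e * D.nb⁻¹ ∈ D.U := by rw [D.nb_x1]; exact D.x1_mem _

theorem words_pos_a : ∀ v ∈ ([1, D.nb, D.na * D.nb, D.nb * D.na * D.nb] : List G),
    (∀ d, v * D.xa d * v⁻¹ ∈ D.U) ∧ v * D.na ∈ D.cells ∧ v ∈ D.cells ∧ ∀ t ∈ D.T, v * t * v⁻¹ ∈ D.T := by
  intro v hv
  simp only [List.mem_cons, List.not_mem_nil, or_false] at hv
  rcases hv with rfl | rfl | rfl | rfl
  · exact ⟨fun d => by simpa using D.xa_mem d, by rw [one_mul]; exact D.word_mem 1, D.word_mem 0,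
      fun t ht => by simpa using ht⟩
  · exact ⟨fun d => D.x2_mem d, D.word_mem 4, D.word_mem 2, fun t ht => D.word_T 2 ht⟩
  · refine ⟨fun d => ?_, D.word_mem 5, D.word_mem 3, fun t ht => D.word_T 3 ht⟩
    rw [show D.na * D.nb * D.xa d * (D.na * D.nb)⁻¹ = D.na * D.x2 d * D.na⁻¹ by simp only [x2]; group]
    exact D.conj_x2_na d
  · refine ⟨fun d => ?_, ?_, D.word_mem 6, fun t ht => D.word_T 6 ht⟩
    · rw [show D.nb * D.na * D.nb * D.xa d * (D.nb * D.na * D.nb)⁻¹ = D.nb * (D.na * D.x2 d * D.na⁻¹) * D.nb⁻¹ by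
        simp only [x2]; group, D.na_x2, D.nb_x2, neg_neg]
      exact D.xa_mem d
    · rw [← D.word_seven]; exact D.word_mem 7

theorem words_pos_b : ∀ v ∈ ([1, D.na, D.nb * D.na, D.na * D.nb * D.na] : List G),
    (∀ c, v * D.xb c * v⁻¹ ∈ D.U) ∧ v * D.nb ∈ D.cells ∧ v ∈ D.cells ∧ ∀ t ∈ D.T, v * t * v⁻¹ ∈ D.T := by
  intro v hv
  simp only [List.mem_cons, List.not_mem_nil, or_false] at hv
  rcases hv with rfl | rfl | rfl | rfl
  · exact ⟨fun d => by simpa using D.xb_mem d, by rw [one_mul]; exact D.word_mem 2, D.word_mem 0,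
      fun t ht => by simpa using ht⟩
  · exact ⟨fun d => D.x1_mem d, D.word_mem 3, D.word_mem 1, fun t ht => D.word_T 1 ht⟩
  · refine ⟨fun d => ?_, D.word_mem 6, D.word_mem 4, fun t ht => D.word_T 4 ht⟩
    rw [show D.nb * D.na * D.xb d * (D.nb * D.na)⁻¹ = D.nb * D.x1 d * D.nb⁻¹ by simp only [x1]; group]
    exact D.conj_x1_nb d
  · refine ⟨fun d => ?_, D.word_mem 7, D.word_mem 5, fun t ht => D.word_T 5 ht⟩
    rw [show D.na * D.nb * D.na * D.xb d * (D.na * D.nb * D.na)⁻¹ = D.na * (D.nb * D.x1 d * D.nb⁻¹) * D.na⁻¹ by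
      simp only [x1]; group, D.nb_x1, D.na_x1]
    exact D.xb_mem d

/-- The absorption step for one simple reflection. -/
theorem step {n : G} {x : F → G} {h : Fˣ → G} {v : G} (hx : ∀ d, v * x d * v⁻¹ ∈ D.U) (hxU : ∀ d, x d ∈ D.U)
    (hh : ∀ s, h s ∈ D.T) (hn : n * n ∈ D.T) (hx0 : x 0 = 1)
    (hid : ∀ d : Fˣ, n * x (d : F) * n = x (((-d⁻¹ : Fˣ)) : F) * h (-d⁻¹) * n * x (((-d⁻¹ : Fˣ)) : F))
    (hvn : v * n ∈ D.cells) (hv : v ∈ D.cells) (hvT : ∀ t ∈ D.T, v * t * v⁻¹ ∈ D.T) (d : F) :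
    v * x d * n ∈ D.cells ∧ v * n * x d * n ∈ D.cells := by
  refine ⟨?_, ?_⟩
  · rw [show v * x d * n = (v * x d * v⁻¹) * (v * n) by group]
    exact D.cells_B (D.U_le_Bor (hx d)) hvn
  · rcases eq_or_ne d 0 with rfl | hd
    · rw [hx0, mul_one, mul_assoc]
      exact D.cells_T hv hn
    · set d' := -(Units.mk0 d hd)⁻¹
      have e := hid (Units.mk0 d hd)
      rw [Units.val_mk0] at e
      rw [show v * n * x d * n = v * (n * x d * n) by group, e,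
        show v * (x (d' : F) * h d' * n * x (d' : F)) = (v * x (d' : F) * v⁻¹ * (v * h d' * v⁻¹)) * (v * n) * x (d' : F) by group]
      exact D.cells_U (D.cells_B (mul_mem (D.U_le_Bor (hx _)) (D.T_le_Bor (hvT _ (hh _)))) hvn) (hxU _)

theorem word_xa_na (w : Fin 8) (d : F) : D.word w * D.xa d * D.na ∈ D.cells := by
  have hid : ∀ d : Fˣ, D.na * D.xa (d : F) * D.na =
      D.xa (((-d⁻¹ : Fˣ)) : F) * D.ha (-d⁻¹) * D.na * D.xa (((-d⁻¹ : Fˣ)) : F) := fun d => by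
    have := congrArg D.A (TXT d)
    simp only [map_mul] at this
    exact this
  have key : ∀ v ∈ ([1, D.nb, D.na * D.nb, D.nb * D.na * D.nb] : List G),
      v * D.xa d * D.na ∈ D.cells ∧ v * D.na * D.xa d * D.na ∈ D.cells := fun v hv =>
    D.step (n := D.na) (x := D.xa) (h := D.ha) (D.words_pos_a v hv).1 D.xa_mem D.ha_mem D.na_sq_mem D.xa_zero hid
      (D.words_pos_a v hv).2.1 (D.words_pos_a v hv).2.2.1 (D.words_pos_a v hv).2.2.2 d
  fin_cases w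
  · exact (key 1 (by simp)).1
  · have := (key 1 (by simp)).2
    simpa [word] using this
  · exact (key D.nb (by simp)).1
  · exact (key (D.na * D.nb) (by simp)).1
  · exact (key D.nb (by simp)).2
  · exact (key (D.na * D.nb) (by simp)).2
  · exact (key (D.nb * D.na * D.nb) (by simp)).1
  · show D.word 7 * D.xa d * D.na ∈ D.cells
    rw [D.word_seven]
    exact (key (D.nb * D.na * D.nb) (by simp)).2

theorem word_xb_nb (w : Fin 8) (d : F) : D.word w * D.xb d * D.nb ∈ D.cells := by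
  have hid : ∀ d : Fˣ, D.nb * D.xb (d : F) * D.nb =
      D.xb (((-d⁻¹ : Fˣ)) : F) * D.hb (-d⁻¹) * D.nb * D.xb (((-d⁻¹ : Fˣ)) : F) := fun d => by
    have := congrArg D.B (TXT d)
    simp only [map_mul] at this
    exact this
  have key : ∀ v ∈ ([1, D.na, D.nb * D.na, D.na * D.nb * D.na] : List G),
      v * D.xb d * D.nb ∈ D.cells ∧ v * D.nb * D.xb d * D.nb ∈ D.cells := fun v hv =>
    D.step (n := D.nb) (x := D.xb) (h := D.hb) (D.words_pos_b v hv).1 D.xb_mem D.hb_mem D.nb_sq_mem D.xb_zero hid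
      (D.words_pos_b v hv).2.1 (D.words_pos_b v hv).2.2.1 (D.words_pos_b v hv).2.2.2 d
  fin_cases w
  · exact (key 1 (by simp)).1
  · exact (key D.na (by simp)).1
  · have := (key 1 (by simp)).2
    simpa [word] using this
  · exact (key D.na (by simp)).2
  · exact (key (D.nb * D.na) (by simp)).1
  · exact (key (D.na * D.nb * D.na) (by simp)).1
  · exact (key (D.nb * D.na) (by simp)).2
  · exact (key (D.na * D.nb * D.na) (by simp)).2

theorem na_conj_uu (e f c : F) : D.na⁻¹ * (D.x1 e * D.x2 f * D.xb c) * D.na ∈ D.U := by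
  have hi : ∀ y, D.na⁻¹ * y * D.na = (D.na * D.na)⁻¹ * (D.na * y * D.na⁻¹) * (D.na * D.na)⁻¹⁻¹ := fun y => by group
  rw [hi]
  refine D.T_normalizes (inv_mem D.na_sq_mem) ?_
  rw [conj_mul', conj_mul', D.na_x1, D.na_x2]
  exact mul_mem (mul_mem (D.xb_mem _) (D.x2_mem _)) (D.x1_mem _)

theorem nb_conj_uu (d e f : F) : D.nb⁻¹ * (D.xa d * D.x1 e * D.x2 f) * D.nb ∈ D.U := by
  have hi : ∀ y, D.nb⁻¹ * y * D.nb = (D.nb * D.nb)⁻¹ * (D.nb * y * D.nb⁻¹) * (D.nb * D.nb)⁻¹⁻¹ := fun y => by group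
  rw [hi]
  refine D.T_normalizes (inv_mem D.nb_sq_mem) ?_
  rw [conj_mul', conj_mul', D.nb_x1, D.nb_x2]
  exact mul_mem (mul_mem (D.x2_mem _) (D.x1_mem _)) (D.xa_mem _)

theorem exists_xb_left {u : G} (hu : u ∈ D.U) : ∃ d e f c, u = D.xb c * (D.xa d * D.x1 e * D.x2 f) := by
  obtain ⟨⟨d, e, f, c⟩, rfl⟩ := hu
  have h1 : D.xb (-c) = D.uu 0 0 0 (-c) := by simp [uu, D.xa_zero, D.x1_zero, D.x2_zero]
  have h2 := D.uu_mul 0 0 0 (-c) d e f c
  rw [neg_add_cancel, zero_add, ← h1] at h2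
  obtain ⟨E, F', h2⟩ : ∃ E F', D.xb (-c) * D.uu d e f c = D.uu d E F' 0 := ⟨_, _, h2⟩
  refine ⟨d, E, F', c, ?_⟩
  show D.uu d e f c = _
  have h3 : D.uu d e f c = D.xb c * (D.xb (-c) * D.uu d e f c) := by
    rw [← mul_assoc, ← D.xb_add, add_neg_cancel, D.xb_zero, one_mul]
  rw [h3, h2, uu, D.xb_zero, mul_one]

theorem cells_na {g : G} (hg : g ∈ D.cells) : g * D.na ∈ D.cells := by
  obtain ⟨w, b, hb, u, ⟨⟨d, e, f, c⟩, rfl⟩, rfl⟩ := hg
  show b * D.word w * D.uu d e f c * D.na ∈ D.cells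
  rw [show b * D.word w * D.uu d e f c * D.na =
    b * ((D.word w * D.xa d * D.na) * (D.na⁻¹ * (D.x1 e * D.x2 f * D.xb c) * D.na)) by simp [uu, mul_assoc]]
  exact D.cells_B hb (D.cells_U (D.word_xa_na w d) (D.na_conj_uu e f c))

theorem cells_nb {g : G} (hg : g ∈ D.cells) : g * D.nb ∈ D.cells := by
  obtain ⟨w, b, hb, u, hu, rfl⟩ := hg
  obtain ⟨d, e, f, c, rfl⟩ := D.exists_xb_left hu
  rw [show b * D.word w * (D.xb c * (D.xa d * D.x1 e * D.x2 f)) * D.nb =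
    b * ((D.word w * D.xb c * D.nb) * (D.nb⁻¹ * (D.xa d * D.x1 e * D.x2 f) * D.nb)) by group]
  exact D.cells_B hb (D.cells_U (D.word_xb_nb w c) (D.nb_conj_uu d e f))

/-- The right stabilizer of the cells. -/
def stab : Subgroup G where
  carrier := {y | (∀ g ∈ D.cells, g * y ∈ D.cells) ∧ ∀ g ∈ D.cells, g * y⁻¹ ∈ D.cells}
  one_mem' := ⟨fun g hg => by rwa [mul_one], fun g hg => by rwa [inv_one, mul_one]⟩
  mul_mem' := by
    rintro y z ⟨hy, hy'⟩ ⟨hz, hz'⟩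
    refine ⟨fun g hg => by rw [← mul_assoc]; exact hz _ (hy g hg), fun g hg => ?_⟩
    rw [_root_.mul_inv_rev, ← mul_assoc]
    exact hy' _ (hz' g hg)
  inv_mem' := by
    rintro y ⟨hy, hy'⟩
    exact ⟨hy', fun g hg => by rw [inv_inv]; exact hy g hg⟩

theorem U_stab {u : G} (hu : u ∈ D.U) : u ∈ D.stab :=
  ⟨fun _ hg => D.cells_U hg hu, fun _ hg => D.cells_U hg (inv_mem hu)⟩

theorem na_stab : D.na ∈ D.stab := by
  refine ⟨fun _ hg => D.cells_na hg, fun g hg => ?_⟩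
  rw [show g * D.na⁻¹ = g * (D.na * D.na)⁻¹ * D.na by group]
  exact D.cells_na (D.cells_T hg (inv_mem D.na_sq_mem))

theorem nb_stab : D.nb ∈ D.stab := by
  refine ⟨fun _ hg => D.cells_nb hg, fun g hg => ?_⟩
  rw [show g * D.nb⁻¹ = g * (D.nb * D.nb)⁻¹ * D.nb by group]
  exact D.cells_nb (D.cells_T hg (inv_mem D.nb_sq_mem))

theorem Y'_eq (c : F) : (Y' c : Matrix.SpecialLinearGroup (Fin 2) F) = T' * X' (-c) * T'⁻¹ := by
  rw [T'_conj, neg_neg]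

theorem cells_eq_univ (hgen : D.A.range ⊔ D.B.range = ⊤) (g : G) : g ∈ D.cells := by
  have hA : D.A.range ≤ D.stab := by
    rw [MonoidHom.range_eq_map, ← sl_two_closure (D.stab.comap D.A) (fun c => D.U_stab (D.xa_mem c)) (fun c => ?_),
      ]
    · exact Subgroup.map_comap_le _ _
    · show D.A (Y' c) ∈ D.stab
      rw [Y'_eq, map_mul, map_mul, map_inv]
      exact mul_mem (mul_mem D.na_stab (D.U_stab (D.xa_mem _))) (inv_mem D.na_stab)
  have hB : D.B.range ≤ D.stab := by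
    rw [MonoidHom.range_eq_map, ← sl_two_closure (D.stab.comap D.B) (fun c => D.U_stab (D.xb_mem c)) (fun c => ?_),
      ]
    · exact Subgroup.map_comap_le _ _
    · show D.B (Y' c) ∈ D.stab
      rw [Y'_eq, map_mul, map_mul, map_inv]
      exact mul_mem (mul_mem D.nb_stab (D.U_stab (D.xb_mem _))) (inv_mem D.nb_stab)
  have hg : g ∈ D.stab := (sup_le hA hB) (hgen ▸ Subgroup.mem_top g)
  have := hg.1 1 (D.word_mem 0)
  rwa [one_mul] at this

omit [Finite F] in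
/-- Normal forms: parameters of the eight cells. -/
abbrev Cell (F : Type u) : Type u :=
  PUnit.{u + 1} ⊕ F ⊕ F ⊕ (F × F) ⊕ (F × F) ⊕ (F × F × F) ⊕ (F × F × F) ⊕ (F × F × F × F)

/-- The element of a cell. -/
def cellElt : Cell F → G :=
  Sum.elim (fun _ => 1) <|
  Sum.elim (fun d => D.na * D.xa d) <|
  Sum.elim (fun c => D.nb * D.xb c) <|
  Sum.elim (fun p => D.na * D.nb * (D.x2 p.1 * D.xb p.2)) <|
  Sum.elim (fun p => D.nb * D.na * (D.xa p.1 * D.x1 p.2)) <|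
  Sum.elim (fun p => D.na * D.nb * D.na * (D.xa p.1 * D.x1 p.2.1 * D.x2 p.2.2)) <|
  Sum.elim (fun p => D.nb * D.na * D.nb * (D.x1 p.1 * D.x2 p.2.1 * D.xb p.2.2)) <|
  fun p => D.na * D.nb * D.na * D.nb * D.uu p.1 p.2.1 p.2.2.1 p.2.2.2

theorem xb_left' {u : G} (hu : u ∈ D.U) :
    ∃ d e f c, u = D.xb c * D.x2 f * (D.xa d * D.x1 e) := by
  obtain ⟨d, e, f, c, rfl⟩ := D.exists_xb_left hu
  refine ⟨d, e + (d * -f + d * -f) * -1 * -1, f, c, ?_⟩
  rw [mul_assoc (D.xb c)]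
  congr 1
  have h1 := D.xa_x2 d f
  have h2 : D.xa d * D.x2 f = D.x2 f * (D.x1 (-(d * f + d * f)) * D.xa d) := by
    rw [← mul_assoc, ← h1, inv_mul_cancel_right]
  calc D.xa d * D.x1 e * D.x2 f = D.xa d * (D.x2 f * D.x1 e) := by rw [← (D.comm_x1_x2 e f).eq, mul_assoc]
    _ = D.x2 f * (D.xa d * (D.x1 (-(d * f + d * f)) * D.x1 e)) := by
      rw [← mul_assoc, h2, (D.comm_xa_x1 d _).symm.eq]; group
    _ = _ := by rw [← D.x1_add]; congr 3; ring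

theorem cells_normal (g : G) (hg : g ∈ D.cells) : ∃ b ∈ D.Bor, ∃ z : Cell F, g = b * D.cellElt z := by
  obtain ⟨w, b, hb, u, hu, rfl⟩ := hg
  have absorb : ∀ (v y rest : G), v * y * v⁻¹ ∈ D.U → b * v * (y * rest) = (b * (v * y * v⁻¹)) * (v * rest) ∧
      b * (v * y * v⁻¹) ∈ D.Bor := fun v y rest h => ⟨by group, mul_mem hb (D.U_le_Bor h)⟩
  fin_cases w
  · refine ⟨b * u, mul_mem hb (D.U_le_Bor hu), Sum.inl PUnit.unit, ?_⟩
    show b * 1 * u = b * u * 1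
    group
  · -- `n_a`
    obtain ⟨⟨d, e, f, c⟩, rfl⟩ := hu
    show ∃ b' ∈ D.Bor, ∃ z, b * D.na * D.uu d e f c = b' * D.cellElt z
    have hy : D.xa d * (D.x1 e * D.x2 f * D.xb c) * (D.xa d)⁻¹ = (D.x1 e) * (D.xa d * D.x2 f * (D.xa d)⁻¹) *
        (D.xa d * D.xb c * (D.xa d)⁻¹) := by
      rw [conj_mul', conj_mul', show D.xa d * D.x1 e * (D.xa d)⁻¹ = D.x1 e by
        rw [(D.comm_xa_x1 d e).eq, mul_inv_cancel_right]]
    obtain ⟨h1, h2⟩ := absorb D.na (D.xa d * (D.x1 e * D.x2 f * D.xb c) * (D.xa d)⁻¹) (D.xa d) (by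
      rw [hy, D.xa_x2, D.xa_xb]
      simp only [conj_mul', D.na_x1, D.na_x2]
      exact mul_mem (mul_mem (D.xb_mem _) (mul_mem (D.x2_mem _) (D.xb_mem _)))
        (mul_mem (mul_mem (D.x1_mem _) (D.x2_mem _)) (D.xb_mem _)))
    refine ⟨_, h2, Sum.inr (Sum.inl d), Eq.trans ?_ h1⟩
    simp [uu, mul_assoc]
  · -- `n_b`
    obtain ⟨⟨d, e, f, c⟩, rfl⟩ := hu
    show ∃ b' ∈ D.Bor, ∃ z, b * D.nb * D.uu d e f c = b' * D.cellElt z
    obtain ⟨h1, h2⟩ := absorb D.nb (D.xa d * D.x1 e * D.x2 f) (D.xb c) (by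
      simp only [conj_mul', D.nb_x1, D.nb_x2]
      exact mul_mem (mul_mem (D.x2_mem _) (D.x1_mem _)) (D.xa_mem _))
    refine ⟨_, h2, Sum.inr (Sum.inr (Sum.inl c)), Eq.trans ?_ h1⟩
    simp [uu, mul_assoc]
  · -- `n_a n_b`
    obtain ⟨⟨d, e, f, c⟩, rfl⟩ := hu
    show ∃ b' ∈ D.Bor, ∃ z, b * (D.na * D.nb) * D.uu d e f c = b' * D.cellElt z
    obtain ⟨h1, h2⟩ := absorb (D.na * D.nb) (D.xa d * D.x1 e) (D.x2 f * D.xb c) (by
      rw [show D.na * D.nb * (D.xa d * D.x1 e) * (D.na * D.nb)⁻¹ =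
        (D.na * D.x2 d * D.na⁻¹) * (D.na * (D.nb * D.x1 e * D.nb⁻¹) * D.na⁻¹) by simp only [x2]; group,
        D.nb_x1, D.na_x1, D.na_x2]
      exact mul_mem (D.x2_mem _) (D.xb_mem _))
    refine ⟨_, h2, Sum.inr (Sum.inr (Sum.inr (Sum.inl (f, c)))), Eq.trans ?_ h1⟩
    simp [uu, mul_assoc]
  · -- `n_b n_a`
    obtain ⟨d, e, f, c, rfl⟩ := D.xb_left' hu
    show ∃ b' ∈ D.Bor, ∃ z, b * (D.nb * D.na) * _ = b' * D.cellElt z
    obtain ⟨h1, h2⟩ := absorb (D.nb * D.na) (D.xb c * D.x2 f) (D.xa d * D.x1 e) (by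
      rw [show D.nb * D.na * (D.xb c * D.x2 f) * (D.nb * D.na)⁻¹ =
        (D.nb * D.x1 c * D.nb⁻¹) * (D.nb * (D.na * D.x2 f * D.na⁻¹) * D.nb⁻¹) by simp only [x1]; group,
        D.nb_x1, D.na_x2, D.nb_x2]
      exact mul_mem (D.x1_mem _) (D.xa_mem _))
    exact ⟨_, h2, Sum.inr (Sum.inr (Sum.inr (Sum.inr (Sum.inl (d, e))))), h1⟩
  · -- `n_a n_b n_a`
    obtain ⟨d, e, f, c, rfl⟩ := D.exists_xb_left hu
    show ∃ b' ∈ D.Bor, ∃ z, b * (D.na * D.nb * D.na) * _ = b' * D.cellElt z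
    obtain ⟨h1, h2⟩ := absorb (D.na * D.nb * D.na) (D.xb c) (D.xa d * D.x1 e * D.x2 f)
      ((D.words_pos_b (D.na * D.nb * D.na) (by simp)).1 c)
    exact ⟨_, h2, Sum.inr (Sum.inr (Sum.inr (Sum.inr (Sum.inr (Sum.inl (d, e, f)))))), h1⟩
  · -- `n_b n_a n_b`
    obtain ⟨⟨d, e, f, c⟩, rfl⟩ := hu
    show ∃ b' ∈ D.Bor, ∃ z, b * (D.nb * D.na * D.nb) * D.uu d e f c = b' * D.cellElt z
    obtain ⟨h1, h2⟩ := absorb (D.nb * D.na * D.nb) (D.xa d) (D.x1 e * D.x2 f * D.xb c)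
      ((D.words_pos_a (D.nb * D.na * D.nb) (by simp)).1 d)
    refine ⟨_, h2, Sum.inr (Sum.inr (Sum.inr (Sum.inr (Sum.inr (Sum.inr (Sum.inl (e, f, c))))))), Eq.trans ?_ h1⟩
    simp [uu, mul_assoc]
  · obtain ⟨⟨d, e, f, c⟩, rfl⟩ := hu
    exact ⟨b, hb, Sum.inr (Sum.inr (Sum.inr (Sum.inr (Sum.inr (Sum.inr (Sum.inr (d, e, f, c))))))), by
      show b * (D.na * D.nb * D.na * D.nb) * D.uu d e f c = _
      simp only [cellElt, Sum.elim_inr]; group⟩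

/-- The order bound. -/
theorem card_le [Fintype F] (hgen : D.A.range ⊔ D.B.range = ⊤) :
    Finite G ∧ Nat.card G ≤ Fintype.card F ^ 4 * (Fintype.card F ^ 2 - 1) * (Fintype.card F ^ 4 - 1) := by
  classical
  let Φ : ((F × F × F × F) × (Fˣ × Fˣ)) × Cell F → G :=
    fun z => D.uu z.1.1.1 z.1.1.2.1 z.1.1.2.2.1 z.1.1.2.2.2 * D.tau z.1.2 * D.cellElt z.2
  have hΦ : Function.Surjective Φ := fun g => by
    obtain ⟨b, ⟨u, ⟨⟨d, e, f, c⟩, rfl⟩, t, ⟨p, rfl⟩, rfl⟩, z, rfl⟩ := D.cells_normal g (D.cells_eq_univ hgen g)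
    exact ⟨((((d, e, f, c)), p), z), rfl⟩
  haveI : Finite G := Finite.of_surjective Φ hΦ
  refine ⟨inferInstance, (Nat.card_le_card_of_surjective Φ hΦ).trans (le_of_eq ?_)⟩
  simp only [Nat.card_eq_fintype_card, Fintype.card_prod, Fintype.card_sum, Fintype.card_units, Fintype.card_punit]
  obtain ⟨m, hm⟩ : ∃ m, Fintype.card F = m + 1 := ⟨Fintype.card F - 1, by
    have := Fintype.one_lt_card (α := F); omega⟩
  rw [hm, Nat.add_sub_cancel, show (m + 1) ^ 2 - 1 = m * (m + 2) by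
    refine Nat.sub_eq_of_eq_add ?_; ring,
    show (m + 1) ^ 4 - 1 = m * (m + 2) * ((m + 1) ^ 2 + 1) by refine Nat.sub_eq_of_eq_add ?_; ring]
  ring

end Data

end Cfsg.Agent.Lib.SpFourPres
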