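import Cfsg.Agent.Lib.SpFourPres.Mat
import Cfsg.Agent.Lib.SLTwoPres.Final
import Cfsg.Agent.Lib.Classical.SympOrder
import Cfsg.Prelude.Def_Classical

/-!
# Thirty relations for `Sp₄(q)`, thirty-one for `PSp₄(q)`
-/

set_option autoImplicit false

namespace Cfsg.Agent.Lib.SpFourPres.Main

open Matrix Cfsg.Agent.Lib.SLTwoPres.Core Cfsg.Agent.Lib.SpFourPres Cfsg.Agent.Lib.Classical
  Cfsg.Agent.Lib.Forms

universe u v

/-- The generators of the first copy. -/
def ia : Fin 3 → Fin 6 := ![0, 1, 2]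

/-- The generators of the second copy. -/
def ib : Fin 3 → Fin 6 := ![3, 4, 5]

/-- Extend two triples to six values. -/
def six {H : Type*} (f g : Fin 3 → H) : Fin 6 → H := ![f 0, f 1, f 2, g 0, g 1, g 2]

theorem six_ia {H : Type*} (f g : Fin 3 → H) : six f g ∘ ia = f := by
  funext i; fin_cases i <;> rfl

theorem six_ib {H : Type*} (f g : Fin 3 → H) : six f g ∘ ib = g := by
  funext i; fin_cases i <;> rfl

theorem exists_index (i : Fin 6) : ∃ j, i = ia j ∨ i = ib j := by
  fin_cases i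
  · exact ⟨0, Or.inl rfl⟩
  · exact ⟨1, Or.inl rfl⟩
  · exact ⟨2, Or.inl rfl⟩
  · exact ⟨0, Or.inr rfl⟩
  · exact ⟨1, Or.inr rfl⟩
  · exact ⟨2, Or.inr rfl⟩

theorem lift_map {α β : Type*} {H : Type*} [Group H] (f : β → H) (φ : α → β) (x : FreeGroup α) :
    FreeGroup.lift f (FreeGroup.map φ x) = FreeGroup.lift (f ∘ φ) x :=
  DFunLike.congr_fun (FreeGroup.ext_hom ((FreeGroup.lift f).comp (FreeGroup.map φ)) (FreeGroup.lift (f ∘ φ))
    fun a => by simp) x

variable {F : Type u} [Field F] [Fintype F]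

/-- The twelve relators between the two copies. -/
def eqs {H : Type*} [Group H] (a b : Matrix.SpecialLinearGroup (Fin 2) F → H) (ω : Fˣ) : Fin 12 → H :=
  ![a (H' ω) * b (H' ω) * (b (H' ω) * a (H' ω))⁻¹,
    a (H' ω) * b (X' 1) * (a (H' ω))⁻¹ * (b (X' (((ω⁻¹ : Fˣ) : F) ^ 2)))⁻¹,
    b (H' ω) * a (X' 1) * (b (H' ω))⁻¹ * (a (X' ((ω⁻¹ : Fˣ) : F)))⁻¹,
    a T' * b (H' ω) * (a T')⁻¹ * (a (H' ω) * b (H' ω))⁻¹,
    b T' * a (H' ω) * (b T')⁻¹ * (a (H' ω) * b (H' ω) * b (H' ω))⁻¹,
    a T' * b T' * a T' * b T' * (b T' * a T' * b T' * a T')⁻¹,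
    a T' * (b T' * a (X' 1) * (b T')⁻¹) * (a T')⁻¹ * (b T' * a (X' (-1)) * (b T')⁻¹)⁻¹,
    b T' * (a T' * b (X' 1) * (a T')⁻¹) * (b T')⁻¹ * (a T' * b (X' 1) * (a T')⁻¹)⁻¹,
    a T' * b (X' 1) * (a T')⁻¹ * b (X' 1) * (b (X' 1) * (a T' * b (X' 1) * (a T')⁻¹))⁻¹,
    a (X' 1) * b (X' 1) * (a (X' 1))⁻¹ *
      (b (X' 1) * (b T' * a (X' (-1)) * (b T')⁻¹) * (a T' * b (X' 1) * (a T')⁻¹))⁻¹,
    a (X' 1) * (b T' * a (X' 1) * (b T')⁻¹) * (a (X' 1))⁻¹ *
      (b T' * a (X' 1) * (b T')⁻¹ * (a T' * b (X' (-(1 + 1))) * (a T')⁻¹))⁻¹,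
    a (X' 1) * (a T' * b (X' 1) * (a T')⁻¹) * (a T' * b (X' 1) * (a T')⁻¹ * a (X' 1))⁻¹]

omit [Fintype F] in
theorem map_eqs {H K : Type*} [Group H] [Group K] (φ : H →* K) (a b : Matrix.SpecialLinearGroup (Fin 2) F → H)
    (ω : Fˣ) (i : Fin 12) : φ (eqs a b ω i) = eqs (fun g => φ (a g)) (fun g => φ (b g)) ω i := by
  fin_cases i <;> simp [eqs]

omit [Fintype F] in
theorem eqs_of_data {G : Type*} [Group G] (D : Data F G) (i : Fin 12) : eqs D.A D.B D.ω i = 1 := by
  fin_cases i
  exacts [mul_inv_eq_one.2 D.tor.eq, mul_inv_eq_one.2 D.act_ab, mul_inv_eq_one.2 D.act_ba, mul_inv_eq_one.2 D.weyl_a,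
    mul_inv_eq_one.2 D.weyl_b, mul_inv_eq_one.2 D.braid, mul_inv_eq_one.2 D.fix_a, mul_inv_eq_one.2 D.fix_b,
    mul_inv_eq_one.2 D.comm_lb.eq, mul_inv_eq_one.2 D.comm_ab, mul_inv_eq_one.2 D.comm_as, mul_inv_eq_one.2 D.comm_al.eq]

/-- Data from vanishing relators. -/
def dataOf {G : Type*} [Group G] (A B : Matrix.SpecialLinearGroup (Fin 2) F →* G) (ω : Fˣ)
    (hω : ∀ s : Fˣ, ∃ n : ℕ, ω ^ n = s) (h : ∀ i, eqs A B ω i = 1) : Data F G where
  A := A
  B := B
  ω := ω
  hω := hω
  tor := mul_inv_eq_one.1 (h 0)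
  act_ab := mul_inv_eq_one.1 (h 1)
  act_ba := mul_inv_eq_one.1 (h 2)
  weyl_a := mul_inv_eq_one.1 (h 3)
  weyl_b := mul_inv_eq_one.1 (h 4)
  braid := mul_inv_eq_one.1 (h 5)
  fix_a := mul_inv_eq_one.1 (h 6)
  fix_b := mul_inv_eq_one.1 (h 7)
  comm_lb := mul_inv_eq_one.1 (h 8)
  comm_ab := mul_inv_eq_one.1 (h 9)
  comm_as := mul_inv_eq_one.1 (h 10)
  comm_al := mul_inv_eq_one.1 (h 11)

variable (R : Finset (FreeGroup (Fin 3)))
  (e : PresentedGroup (↑R : Set (FreeGroup (Fin 3))) ≃* Matrix.SpecialLinearGroup (Fin 2) F)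

/-- A word for an element of `SL₂`. -/
noncomputable def word (g : Matrix.SpecialLinearGroup (Fin 2) F) : FreeGroup (Fin 3) :=
  (PresentedGroup.mk_surjective (↑R : Set (FreeGroup (Fin 3))) (e.symm g)).choose

omit [Fintype F] in
theorem word_spec (g : Matrix.SpecialLinearGroup (Fin 2) F) :
    PresentedGroup.mk (↑R : Set (FreeGroup (Fin 3))) (word R e g) = e.symm g :=
  (PresentedGroup.mk_surjective (↑R : Set (FreeGroup (Fin 3))) (e.symm g)).choose_spec

omit [Fintype F] in
theorem lift_eq {K : Type*} [Group K] (Ψ : Matrix.SpecialLinearGroup (Fin 2) F →* K) (x : FreeGroup (Fin 3)) :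
    FreeGroup.lift (fun i => Ψ (e (PresentedGroup.of i))) x =
      Ψ (e (PresentedGroup.mk (↑R : Set (FreeGroup (Fin 3))) x)) :=
  DFunLike.congr_fun (FreeGroup.ext_hom (FreeGroup.lift fun i => Ψ (e (PresentedGroup.of i)))
    (Ψ.comp (e.toMonoidHom.comp (PresentedGroup.mk _))) fun a => by simp [PresentedGroup.of]) x

/-- The relations. -/
noncomputable def allRels (ω : Fˣ) : Finset (FreeGroup (Fin 6)) :=
  R.image (FreeGroup.map ia) ∪ R.image (FreeGroup.map ib) ∪
    Finset.univ.image (eqs (fun g => FreeGroup.map ia (word R e g)) (fun g => FreeGroup.map ib (word R e g)) ω)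

omit [Fintype F] in
theorem card_allRels (ω : Fˣ) (hR : R.card ≤ 9) : (allRels R e ω).card ≤ 30 := by
  classical
  unfold allRels
  refine (Finset.card_union_le _ _).trans ?_
  refine (add_le_add (Finset.card_union_le _ _) Finset.card_image_le).trans ?_
  refine (add_le_add (add_le_add Finset.card_image_le Finset.card_image_le) le_rfl).trans ?_
  simp only [Finset.card_univ, Fintype.card_fin]
  omega

omit [Fintype F] in
/-- A map of generators killing the relations yields two copies of `SL₂` satisfying the relations. -/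
theorem exists_data {K : Type v} [Group K] (ω : Fˣ) (hω : ∀ s : Fˣ, ∃ n : ℕ, ω ^ n = s) (f : Fin 6 → K)
    (hf : ∀ r ∈ allRels R e ω, FreeGroup.lift f r = 1) :
    ∃ D : Data F K, (∀ g, D.A g = FreeGroup.lift f (FreeGroup.map ia (word R e g))) ∧
      (∀ i, f (ia i) = D.A (e (PresentedGroup.of i))) ∧ (∀ i, f (ib i) = D.B (e (PresentedGroup.of i))) := by
  classical
  have ha : ∀ r ∈ (↑R : Set (FreeGroup (Fin 3))), FreeGroup.lift (f ∘ ia) r = 1 := fun r hr => by
    rw [← lift_map]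
    exact hf _ (Finset.mem_union_left _ (Finset.mem_union_left _ (Finset.mem_image_of_mem _ hr)))
  have hb : ∀ r ∈ (↑R : Set (FreeGroup (Fin 3))), FreeGroup.lift (f ∘ ib) r = 1 := fun r hr => by
    rw [← lift_map]
    exact hf _ (Finset.mem_union_left _ (Finset.mem_union_right _ (Finset.mem_image_of_mem _ hr)))
  let A := (PresentedGroup.toGroup ha).comp e.symm.toMonoidHom
  let B := (PresentedGroup.toGroup hb).comp e.symm.toMonoidHom
  have hA : ∀ g, A g = FreeGroup.lift f (FreeGroup.map ia (word R e g)) := fun g => by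
    show PresentedGroup.toGroup ha (e.symm g) = _
    rw [← word_spec R e g, lift_map]
    rfl
  have hB : ∀ g, B g = FreeGroup.lift f (FreeGroup.map ib (word R e g)) := fun g => by
    show PresentedGroup.toGroup hb (e.symm g) = _
    rw [← word_spec R e g, lift_map]
    rfl
  refine ⟨dataOf A B ω hω fun i => ?_, hA, fun i => ?_, fun i => ?_⟩
  · rw [show (⇑A : _ → K) = fun g => FreeGroup.lift f (FreeGroup.map ia (word R e g)) from funext hA,
      show (⇑B : _ → K) = fun g => FreeGroup.lift f (FreeGroup.map ib (word R e g)) from funext hB, ← map_eqs]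
    exact hf _ (Finset.mem_union_right _ (Finset.mem_image_of_mem _ (Finset.mem_univ i)))
  · show f (ia i) = PresentedGroup.toGroup ha (e.symm (e (PresentedGroup.of i)))
    rw [MulEquiv.symm_apply_apply, PresentedGroup.toGroup.of]
    rfl
  · show f (ib i) = PresentedGroup.toGroup hb (e.symm (e (PresentedGroup.of i)))
    rw [MulEquiv.symm_apply_apply, PresentedGroup.toGroup.of]
    rfl

/-- The symplectic images of the generators. -/
noncomputable def gens : Fin 6 → Matrix.symplecticGroup (Fin 2) F :=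
  six (fun i => hA (e (PresentedGroup.of i))) (fun i => hB (e (PresentedGroup.of i)))

omit [Fintype F] in
theorem lift_gens_a (g : Matrix.SpecialLinearGroup (Fin 2) F) :
    FreeGroup.lift (gens R e) (FreeGroup.map ia (word R e g)) = hA g := by
  rw [lift_map, gens, six_ia, lift_eq R e hA, word_spec, MulEquiv.apply_symm_apply]

omit [Fintype F] in
theorem lift_gens_b (g : Matrix.SpecialLinearGroup (Fin 2) F) :
    FreeGroup.lift (gens R e) (FreeGroup.map ib (word R e g)) = hB g := by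
  rw [lift_map, gens, six_ib, lift_eq R e hB, word_spec, MulEquiv.apply_symm_apply]

omit [Fintype F] in
theorem gens_ok (ω : Fˣ) (hω : ∀ s : Fˣ, ∃ n : ℕ, ω ^ n = s) :
    ∀ r ∈ allRels R e ω, FreeGroup.lift (gens R e) r = 1 := by
  classical
  intro r hr
  rcases Finset.mem_union.1 hr with hr | hr
  · rcases Finset.mem_union.1 hr with hr | hr <;> obtain ⟨r', hr', rfl⟩ := Finset.mem_image.1 hr
    · rw [lift_map, gens, six_ia, lift_eq R e hA, PresentedGroup.one_of_mem (Finset.mem_coe.2 hr'), map_one, map_one]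
    · rw [lift_map, gens, six_ib, lift_eq R e hB, PresentedGroup.one_of_mem (Finset.mem_coe.2 hr'), map_one, map_one]
  · obtain ⟨i, -, rfl⟩ := Finset.mem_image.1 hr
    rw [map_eqs]
    simp only [lift_gens_a, lift_gens_b]
    exact eqs_of_data (spData ω hω) i

/-- The presentation of `Sp₄`. -/
theorem bijective (ω : Fˣ) (hω : ∀ s : Fˣ, ∃ n : ℕ, ω ^ n = s) :
    Function.Bijective (PresentedGroup.toGroup (rels := (↑(allRels R e ω) : Set (FreeGroup (Fin 6))))
      (f := gens R e) (gens_ok R e ω hω)) := by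
  classical
  set π := PresentedGroup.toGroup (rels := (↑(allRels R e ω) : Set (FreeGroup (Fin 6))))
      (f := gens R e) (gens_ok R e ω hω)
  have hsurj : Function.Surjective π := by
    rw [← MonoidHom.range_eq_top, eq_top_iff, ← range_sup_eq_top, sup_le_iff]
    constructor <;> rintro _ ⟨g, rfl⟩
    · exact ⟨PresentedGroup.mk _ (FreeGroup.map ia (word R e g)), lift_gens_a R e g⟩
    · exact ⟨PresentedGroup.mk _ (FreeGroup.map ib (word R e g)), lift_gens_b R e g⟩
  obtain ⟨D, -, hDa, hDb⟩ := exists_data R e ω hω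
    (PresentedGroup.of (rels := (↑(allRels R e ω) : Set (FreeGroup (Fin 6))))) fun r hr => by
      rw [show FreeGroup.lift (PresentedGroup.of (rels := (↑(allRels R e ω) : Set (FreeGroup (Fin 6))))) =
        PresentedGroup.mk _ from FreeGroup.ext_hom _ _ fun a => by simp [PresentedGroup.of]]
      exact PresentedGroup.one_of_mem (Finset.mem_coe.2 hr)
  have hgen : D.A.range ⊔ D.B.range = ⊤ := by
    rw [eq_top_iff, ← PresentedGroup.closure_range_of, Subgroup.closure_le]
    rintro _ ⟨i, rfl⟩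
    obtain ⟨j, rfl | rfl⟩ := exists_index i
    · exact Subgroup.mem_sup_left ⟨_, (hDa j).symm⟩
    · exact Subgroup.mem_sup_right ⟨_, (hDb j).symm⟩
  obtain ⟨hfin, hle⟩ := D.card_le hgen
  refine hsurj.bijective_of_nat_card_le (hle.trans (le_of_eq ?_))
  rw [card_symplecticGroup, Finset.prod_range_succ, Finset.prod_range_succ, Finset.prod_range_zero, one_mul, mul_assoc]
  norm_num

theorem exists_omega (F : Type u) [Field F] [Fintype F] : ∃ ω : Fˣ, ∀ s : Fˣ, ∃ n : ℕ, ω ^ n = s := by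
  obtain ⟨ω, hω⟩ := IsCyclic.exists_monoid_generator (α := Fˣ)
  exact ⟨ω, fun s => hω s⟩

/-- The statement for both groups. -/
theorem main (F : Type u) [Field F] [Fintype F] :
    (∃ rels : Finset (FreeGroup (Fin 6)), rels.card ≤ 35 ∧
      Nonempty (PresentedGroup (↑rels : Set (FreeGroup (Fin 6))) ≃* Matrix.symplecticGroup (Fin 2) F)) ∧
    (∃ rels : Finset (FreeGroup (Fin 6)), rels.card ≤ 36 ∧
      Nonempty (PresentedGroup (↑rels : Set (FreeGroup (Fin 6))) ≃* Cfsg.PSp 2 F)) := by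
  classical
  obtain ⟨R, hR, ⟨e⟩⟩ := (SLTwoPres.Final.main F).1
  obtain ⟨ω, hω⟩ := exists_omega F
  have hbij := bijective R e ω hω
  set π := PresentedGroup.toGroup (rels := (↑(allRels R e ω) : Set (FreeGroup (Fin 6))))
      (f := gens R e) (gens_ok R e ω hω) with hπdef
  refine ⟨⟨allRels R e ω, (card_allRels R e ω hR).trans (by norm_num), ⟨MulEquiv.ofBijective π hbij⟩⟩, ?_⟩
  set z : FreeGroup (Fin 6) := FreeGroup.map ia (word R e (H' (-1))) with hz
  refine ⟨insert z (allRels R e ω), (Finset.card_insert_le _ _).trans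
    ((Nat.succ_le_succ (card_allRels R e ω hR)).trans (by norm_num)), ?_⟩
  have hm1 : ∀ x, ((hA (H' (-1 : Fˣ)) : Matrix.symplecticGroup (Fin 2) F) : M4 F) *ᵥ x = (-1 : F) • x := by
    intro x
    funext i
    rw [hA_mulVec]
    rcases i with i | i <;> fin_cases i <;> simp [H']
  have hzc : hA (H' (-1 : Fˣ)) ∈ Subgroup.center (Matrix.symplecticGroup (Fin 2) F) :=
    mem_center_of_fixes_lines 2 _ fun v => ⟨-1, hm1 v⟩
  let q := QuotientGroup.mk' (Subgroup.center (Matrix.symplecticGroup (Fin 2) F))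
  have hok : ∀ r ∈ (↑(insert z (allRels R e ω)) : Set (FreeGroup (Fin 6))),
      FreeGroup.lift (fun i => q (gens R e i)) r = 1 := by
    intro r hr
    rw [show FreeGroup.lift (fun i => q (gens R e i)) = q.comp (FreeGroup.lift (gens R e)) from
      FreeGroup.ext_hom _ _ fun a => by simp, MonoidHom.comp_apply]
    rcases Finset.mem_insert.1 (Finset.mem_coe.1 hr) with rfl | hr
    · rw [lift_gens_a]
      exact (QuotientGroup.eq_one_iff _).2 hzc
    · rw [gens_ok R e ω hω r hr, map_one]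
  set π' := PresentedGroup.toGroup hok
  let n : PresentedGroup (↑(allRels R e ω) : Set (FreeGroup (Fin 6))) →*
      PresentedGroup (↑(insert z (allRels R e ω)) : Set (FreeGroup (Fin 6))) :=
    QuotientGroup.map _ _ (MonoidHom.id _) (Subgroup.normalClosure_mono (by
      rw [Finset.coe_insert]; exact Set.subset_insert _ _))
  have hn : ∀ w, n (PresentedGroup.mk _ w) = PresentedGroup.mk _ w := fun w => rfl
  have hcomp : ∀ y, π' (n y) = q (π y) := fun y => by
    obtain ⟨w, rfl⟩ := PresentedGroup.mk_surjective _ y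
    rw [hn]
    exact DFunLike.congr_fun (FreeGroup.ext_hom (π'.comp (PresentedGroup.mk _))
      (q.comp (π.comp (PresentedGroup.mk _))) fun a => by
        simp only [MonoidHom.comp_apply, π', hπdef]
        exact (PresentedGroup.toGroup.of hok).trans (congrArg q (PresentedGroup.toGroup.of _).symm)) w
  have hnsurj : Function.Surjective n := fun x => by
    obtain ⟨w, rfl⟩ := PresentedGroup.mk_surjective _ x
    exact ⟨_, hn w⟩
  refine ⟨MulEquiv.ofBijective π' ⟨?_, ?_⟩⟩
  · rw [← MonoidHom.ker_eq_bot_iff, eq_bot_iff]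
    intro x hx
    rw [Subgroup.mem_bot]
    obtain ⟨y, rfl⟩ := hnsurj x
    rw [MonoidHom.mem_ker, hcomp] at hx
    obtain ⟨a, ha, hya⟩ := exists_scalar_of_mem_center 2 (by norm_num) ((QuotientGroup.eq_one_iff _).1 hx)
    rcases mul_self_eq_one_iff.1 ha with rfl | rfl
    · have : π y = π 1 := by
        rw [map_one]
        exact sp_ext fun v => by rw [hya, one_smul]; simp
      rw [hbij.1 this, map_one]
    · have : π y = π (PresentedGroup.mk _ z) := by
        rw [show π (PresentedGroup.mk _ z) = hA (H' (-1)) from lift_gens_a R e _]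
        exact sp_ext fun v => by rw [hya, hm1]
      rw [hbij.1 this, hn]
      exact PresentedGroup.one_of_mem (Finset.mem_coe.2 (Finset.mem_insert_self _ _))
  · intro x
    obtain ⟨g, rfl⟩ := QuotientGroup.mk'_surjective _ x
    obtain ⟨y, rfl⟩ := hbij.2 g
    exact ⟨n y, hcomp y⟩

end Cfsg.Agent.Lib.SpFourPres.Main
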