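import Cfsg.Agent.Lib.SpFourPres.Bruhat
import Cfsg.Agent.Lib.Classical.Symplectic

/-!
# The two rank one subgroups of `Sp₄`
-/

set_option autoImplicit false

namespace Cfsg.Agent.Lib.SpFourPres

open Matrix Cfsg.Agent.Lib.SLTwoPres.Core Cfsg.Agent.Lib.Classical Cfsg.Agent.Lib.Forms

universe u

variable {F : Type u} [Field F]

theorem det_two (g : Matrix.SpecialLinearGroup (Fin 2) F) : g.1 0 0 * g.1 1 1 - g.1 0 1 * g.1 1 0 = 1 := by
  rw [← Matrix.det_fin_two]; exact g.2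

theorem coe_two_mul (g h : Matrix.SpecialLinearGroup (Fin 2) F) (i j : Fin 2) :
    (g * h).1 i j = g.1 i 0 * h.1 0 j + g.1 i 1 * h.1 1 j := by
  show (g.1 * h.1) i j = _
  rw [Matrix.mul_apply, Fin.sum_univ_two]

/-- Four by four matrices as two by two blocks. -/
abbrev M4 (F : Type u) [Field F] := Matrix (Fin 2 ⊕ Fin 2) (Fin 2 ⊕ Fin 2) F

/-- The matrix of an element of the short rank one subgroup. -/
def matA (g : Matrix.SpecialLinearGroup (Fin 2) F) : M4 F :=
  fromBlocks !![g.1 0 0, g.1 0 1; g.1 1 0, g.1 1 1] !![0, 0; 0, 0] !![0, 0; 0, 0]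
    !![g.1 1 1, -g.1 1 0; -g.1 0 1, g.1 0 0]

/-- The matrix of an element of the long rank one subgroup. -/
def matB (g : Matrix.SpecialLinearGroup (Fin 2) F) : M4 F :=
  fromBlocks !![1, 0; 0, g.1 0 0] !![0, 0; 0, g.1 0 1] !![0, 0; 0, g.1 1 0] !![1, 0; 0, g.1 1 1]

theorem J_two : Matrix.J (Fin 2) F = fromBlocks !![0, 0; 0, 0] !![-1, 0; 0, -1] !![1, 0; 0, 1] !![0, 0; 0, 0] := by
  rw [Matrix.J]
  congr 1 <;> ext i j <;> fin_cases i <;> fin_cases j <;> simp

theorem one_four : (1 : M4 F) = fromBlocks !![1, 0; 0, 1] !![0, 0; 0, 0] !![0, 0; 0, 0] !![1, 0; 0, 1] := by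
  rw [← fromBlocks_one]
  congr 1 <;> ext i j <;> fin_cases i <;> fin_cases j <;> simp

theorem matA_mem (g : Matrix.SpecialLinearGroup (Fin 2) F) : matA g ∈ Matrix.symplecticGroup (Fin 2) F := by
  have h := det_two g
  rw [matA]
  revert h
  generalize g.1 0 0 = a
  generalize g.1 0 1 = b
  generalize g.1 1 0 = c
  generalize g.1 1 1 = d
  intro h
  rw [SymplecticGroup.mem_iff, J_two, fromBlocks_transpose, fromBlocks_multiply, fromBlocks_multiply,
    fromBlocks_inj]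
  refine ⟨?_, ?_, ?_, ?_⟩ <;> ext i j <;> fin_cases i <;> fin_cases j <;>
    simp only [Matrix.add_apply, Matrix.mul_apply, Matrix.transpose_apply, Fin.sum_univ_two] <;> simp <;>
      first | ring1 | linear_combination h | linear_combination -h

theorem matB_mem (g : Matrix.SpecialLinearGroup (Fin 2) F) : matB g ∈ Matrix.symplecticGroup (Fin 2) F := by
  have h := det_two g
  rw [matB]
  revert h
  generalize g.1 0 0 = a
  generalize g.1 0 1 = b
  generalize g.1 1 0 = c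
  generalize g.1 1 1 = d
  intro h
  rw [SymplecticGroup.mem_iff, J_two, fromBlocks_transpose, fromBlocks_multiply, fromBlocks_multiply,
    fromBlocks_inj]
  refine ⟨?_, ?_, ?_, ?_⟩ <;> ext i j <;> fin_cases i <;> fin_cases j <;>
    simp only [Matrix.add_apply, Matrix.mul_apply, Matrix.transpose_apply, Fin.sum_univ_two] <;> simp <;>
      first | ring1 | linear_combination h | linear_combination -h

/-- The short rank one subgroup. -/
def hA : Matrix.SpecialLinearGroup (Fin 2) F →* Matrix.symplecticGroup (Fin 2) F where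
  toFun g := ⟨matA g, matA_mem g⟩
  map_one' := Subtype.ext (by
    show matA 1 = 1
    rw [one_four, matA]
    simp)
  map_mul' g h := Subtype.ext (by
    show matA (g * h) = matA g * matA h
    rw [matA, matA, matA, fromBlocks_multiply, fromBlocks_inj]
    refine ⟨?_, ?_, ?_, ?_⟩ <;> ext i j <;> fin_cases i <;> fin_cases j <;>
      simp [Matrix.mul_apply, Fin.sum_univ_two, coe_two_mul] <;> ring)

/-- The long rank one subgroup. -/
def hB : Matrix.SpecialLinearGroup (Fin 2) F →* Matrix.symplecticGroup (Fin 2) F where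
  toFun g := ⟨matB g, matB_mem g⟩
  map_one' := Subtype.ext (by
    show matB 1 = 1
    rw [one_four, matB]
    simp)
  map_mul' g h := Subtype.ext (by
    show matB (g * h) = matB g * matB h
    rw [matB, matB, matB, fromBlocks_multiply, fromBlocks_inj]
    refine ⟨?_, ?_, ?_, ?_⟩ <;> ext i j <;> fin_cases i <;> fin_cases j <;>
      simp [Matrix.mul_apply, Fin.sum_univ_two, coe_two_mul] <;> ring)

theorem hA_coe (g : Matrix.SpecialLinearGroup (Fin 2) F) : ((hA g : Matrix.symplecticGroup (Fin 2) F) : M4 F) = matA g := rfl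

theorem hB_coe (g : Matrix.SpecialLinearGroup (Fin 2) F) : ((hB g : Matrix.symplecticGroup (Fin 2) F) : M4 F) = matB g := rfl

/-- The inverse Weyl element. -/
def T'' : Matrix.SpecialLinearGroup (Fin 2) F := ⟨!![0, -1; 1, 0], by simp [Matrix.det_fin_two]⟩

theorem T'_inv : (T' : Matrix.SpecialLinearGroup (Fin 2) F)⁻¹ = T'' := by
  refine inv_eq_of_mul_eq_one_right (Matrix.SpecialLinearGroup.ext _ _ fun i j => ?_)
  rw [coe_two_mul]
  fin_cases i <;> fin_cases j <;> simp [T', T'']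

theorem X'_inv (c : F) : (X' c)⁻¹ = X' (-c) :=
  inv_eq_of_mul_eq_one_right (by rw [← X'_add, add_neg_cancel, X'_zero])

theorem H'_inv (s : Fˣ) : (H' s : Matrix.SpecialLinearGroup (Fin 2) F)⁻¹ = H' s⁻¹ :=
  inv_eq_of_mul_eq_one_right (by rw [← H'_mul, mul_inv_cancel, H'_one])

/-- The relations hold in `Sp₄`. -/
def spData (ω : Fˣ) (hω : ∀ s : Fˣ, ∃ n : ℕ, ω ^ n = s) : Data F (Matrix.symplecticGroup (Fin 2) F) := by
  refine ⟨hA, hB, ω, hω, ?_, ?_, ?_, ?_, ?_, ?_, ?_, ?_, ?_, ?_, ?_, ?_⟩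
  all_goals
    try simp only [commute_iff_eq, ← map_inv, X'_inv, H'_inv, T'_inv]
    apply Subtype.ext
    simp only [Submonoid.coe_mul, hA_coe, hB_coe]
    simp only [matA, matB, fromBlocks_multiply, mul_fin_two, X', H', T', T'']
    rw [fromBlocks_inj]
    refine ⟨?_, ?_, ?_, ?_⟩ <;> ext i j <;> fin_cases i <;> fin_cases j <;> simp <;> (try field_simp) <;> (try ring)

theorem spData_A (ω : Fˣ) (hω : ∀ s : Fˣ, ∃ n : ℕ, ω ^ n = s) : (spData ω hω).A = hA := rfl

theorem spData_B (ω : Fˣ) (hω : ∀ s : Fˣ, ∃ n : ℕ, ω ^ n = s) : (spData ω hω).B = hB := rfl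

theorem hA_mulVec (g : Matrix.SpecialLinearGroup (Fin 2) F) (v : Fin 2 ⊕ Fin 2 → F) :
    ((hA g : Matrix.symplecticGroup (Fin 2) F) : M4 F) *ᵥ v =
      Sum.elim ![g.1 0 0 * v (.inl 0) + g.1 0 1 * v (.inl 1), g.1 1 0 * v (.inl 0) + g.1 1 1 * v (.inl 1)]
        ![g.1 1 1 * v (.inr 0) + -g.1 1 0 * v (.inr 1), -g.1 0 1 * v (.inr 0) + g.1 0 0 * v (.inr 1)] := by
  funext i
  rcases i with i | i <;> fin_cases i <;> simp [hA_coe, matA, Matrix.mulVec, dotProduct, Fintype.sum_sum_type]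

theorem hB_mulVec (g : Matrix.SpecialLinearGroup (Fin 2) F) (v : Fin 2 ⊕ Fin 2 → F) :
    ((hB g : Matrix.symplecticGroup (Fin 2) F) : M4 F) *ᵥ v =
      Sum.elim ![v (.inl 0), g.1 0 0 * v (.inl 1) + g.1 0 1 * v (.inr 1)]
        ![v (.inr 0), g.1 1 0 * v (.inl 1) + g.1 1 1 * v (.inr 1)] := by
  funext i
  rcases i with i | i <;> fin_cases i <;> simp [hB_coe, matB, Matrix.mulVec, dotProduct, Fintype.sum_sum_type]

theorem exists_to_e2 (a b : F) (h : a ≠ 0 ∨ b ≠ 0) :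
    ∃ g : Matrix.SpecialLinearGroup (Fin 2) F, g.1 0 0 * a + g.1 0 1 * b = 0 ∧ g.1 1 0 * a + g.1 1 1 * b = 1 := by
  rcases eq_or_ne a 0 with rfl | ha
  · have hb : b ≠ 0 := by simpa using h
    exact ⟨⟨!![b, 0; 0, b⁻¹], by simp [Matrix.det_fin_two, hb]⟩, by simp, by simp [hb]⟩
  · exact ⟨⟨!![b, -a; a⁻¹, 0], by simp [Matrix.det_fin_two, ha]⟩, by simp; ring, by simp [ha]⟩

/-- The two subgroups generate `Sp₄`. -/
theorem range_sup_eq_top :
    (hA : Matrix.SpecialLinearGroup (Fin 2) F →* _).range ⊔ hB.range = ⊤ := by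
  set H := (hA : Matrix.SpecialLinearGroup (Fin 2) F →* _).range ⊔ hB.range
  set e : Fin 2 ⊕ Fin 2 → F := Sum.elim ![0, 1] ![0, 0] with he
  have mA : ∀ g, hA g ∈ H := fun g => Subgroup.mem_sup_left ⟨g, rfl⟩
  have mB : ∀ g, hB g ∈ H := fun g => Subgroup.mem_sup_right ⟨g, rfl⟩
  let R : (Fin 2 ⊕ Fin 2 → F) → Prop := fun v => ∃ h ∈ H, ((h : Matrix.symplecticGroup (Fin 2) F) : M4 F) *ᵥ v = e
  have back : ∀ h ∈ H, ∀ v, R (((h : Matrix.symplecticGroup (Fin 2) F) : M4 F) *ᵥ v) → R v := by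
    rintro h hh v ⟨k, hk, hkv⟩
    exact ⟨k * h, mul_mem hk hh, by rw [Submonoid.coe_mul, ← mulVec_mulVec, hkv]⟩
  have h0 : ∀ v, (v (.inl 0) ≠ 0 ∨ v (.inl 1) ≠ 0) → v (.inr 0) = 0 → v (.inr 1) = 0 → R v := by
    intro v hv hy0 hy1
    obtain ⟨g, h1, h2⟩ := exists_to_e2 _ _ hv
    refine ⟨hA g, mA g, ?_⟩
    rw [hA_mulVec, h1, h2, hy0, hy1, he]
    simp
  have h1 : ∀ v, (v (.inl 0) ≠ 0 ∨ v (.inl 1) ≠ 0) → R v := by
    intro v hv
    obtain ⟨g, h1, h2⟩ := exists_to_e2 _ _ hv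
    refine back _ (mA g) v ?_
    rw [hA_mulVec, h1, h2]
    refine back _ (mB (Y' (-(-g.1 0 1 * v (.inr 0) + g.1 0 0 * v (.inr 1))))) _ ?_
    rw [hB_mulVec]
    refine back _ (mA T') _ ?_
    rw [hA_mulVec]
    refine back _ (mB T') _ ?_
    rw [hB_mulVec]
    refine h0 _ (Or.inl ?_) ?_ ?_ <;> simp [T', Y']
  have h2 : ∀ v, v (.inr 1) ≠ 0 → R v := fun v hv => by
    refine back _ (mB T') v (h1 _ (Or.inr ?_))
    rw [hB_mulVec]
    simpa [T'] using hv
  have hR : ∀ v, v ≠ 0 → R v := by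
    intro v hv
    by_cases hx : v (.inl 0) ≠ 0 ∨ v (.inl 1) ≠ 0
    · exact h1 v hx
    push Not at hx
    by_cases hy : v (.inr 1) ≠ 0
    · exact h2 v hy
    push Not at hy
    refine back _ (mA T') v (h2 _ ?_)
    rw [hA_mulVec]
    simp only [T', Sum.elim_inr]
    intro h
    apply hv
    funext i
    rcases i with i | i <;> fin_cases i
    · exact hx.1
    · exact hx.2
    · simpa using h
    · exact hy
  refine sp_eq_top_of_spT 2 H fun v c => ?_
  rcases eq_or_ne v 0 with rfl | hv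
  · rw [show spT 2 (0 : Fin 2 ⊕ Fin 2 → F) c = 1 from sp_ext fun x => by simp [spT_mulVec]]
    exact one_mem _
  obtain ⟨h, hh, hhv⟩ := hR v hv
  have hx : spT 2 e c = hB (X' c) := by
    refine sp_ext fun x => ?_
    rw [spT_mulVec, hB_mulVec, stdB, Matrix.toBilin'_apply', J_two, he]
    funext i
    rcases i with i | i <;> fin_cases i <;>
      simp [X', Matrix.mulVec, dotProduct, Fintype.sum_sum_type]
  have key := spT_conj 2 h v c
  rw [hhv, hx] at key
  rw [show spT 2 v c = h⁻¹ * (h * spT 2 v c * h⁻¹) * h by group, key]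
  exact mul_mem (mul_mem (inv_mem hh) (mB _)) hh

end Cfsg.Agent.Lib.SpFourPres
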